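import Mathlib
import Cfsg.Agent.Lib.Helper32.D8Stmt
import Cfsg.Agent.Lib.CT.FrobRec

set_option autoImplicit false

namespace Cfsg.Agent.Lib.Helper50.D8GRAMX

open Cfsg
open Cfsg.Agent.Lib.Helper32
open Cfsg.Agent.Lib.Helper32.D8Stmt
open Cfsg.Agent.Lib.CT.FrobRec
open scoped ComplexConjugate

universe u

theorem main (hIP : D8Stmt.IP.{u}) (hA : D8Stmt.VALA.{u}) (hB : D8Stmt.VALB.{u}) :
    D8Stmt.GRAMX.{u} := by
  intro G _ _ T N x y a b w hc f g hom
  obtain ⟨a1, a2, a3, -⟩ := hA hc f g hom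
  obtain ⟨b1, b2, b3, -⟩ := hB hc f g hom
  have hcl1 : IsClassFunction G (th1 x f) := indFun_isClassFunction _ _
  have hcl2 : IsClassFunction G (th2 x f g) := indFun_isClassFunction _ _
  have hcl3 : IsClassFunction G (triv G) := fun _ _ => rfl
  obtain ⟨p1, q1⟩ := hIP hc f g hom _ hcl1
  obtain ⟨p2, q2⟩ := hIP hc f g hom _ hcl2
  obtain ⟨p3, q3⟩ := hIP hc f g hom _ hcl3
  refine ⟨?_, ?_, ?_, ?_, ?_, ?_⟩
  · rw [p1, a1, a2, a3]
    simp only [map_ofNat]
    norm_num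
  · rw [q2, b1, b2, b3]
    simp only [map_ofNat, map_neg]
    norm_num
  · rw [p2, b1, b2, b3]
    simp only [map_ofNat, map_neg]
    norm_num
  · rw [q1, a1, a2, a3]
    simp only [map_ofNat]
    norm_num
  · rw [p3]
    simp only [triv, map_one]
    norm_num
  · rw [q3]
    simp only [triv, map_one]
    norm_num

end Cfsg.Agent.Lib.Helper50.D8GRAMX

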