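import Mathlib
import Cfsg.Agent.Lib.Helper32.D8Stmt
import Cfsg.Agent.Lib.CT.FrobRec

set_option autoImplicit false

namespace Cfsg.Agent.Lib.Helper50.D8IP

open Cfsg
open Cfsg.Agent.Lib.Helper32
open Cfsg.Agent.Lib.Helper32.D8Stmt
open Cfsg.Agent.Lib.CT.FrobRec
open scoped ComplexConjugate

universe u

variable {G : Type u} [Group G] {T N : Subgroup G} {x y a b w : G}

theorem inv_x (hc : Cfg T N x y a b w) : x⁻¹ = x ^ 2 :=
  inv_eq_of_mul_eq_one_right (by rw [← pow_succ', hc.x3])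

theorem inv_y (hc : Cfg T N x y a b w) : y⁻¹ = y ^ 2 :=
  inv_eq_of_mul_eq_one_right (by rw [← pow_succ', hc.y3])

theorem conj_a (hc : Cfg T N x y a b w) (j l : ℕ) :
    a * (x * y ^ j * b ^ l) * a⁻¹ = x ^ 2 * y ^ j * b ^ l := by
  have h1 : a * x * a⁻¹ = x ^ 2 := by rw [hc.ax, inv_x hc]
  have h2 : a * y ^ j * a⁻¹ = y ^ j := by
    have hcm : Commute a (y ^ j) := (show Commute a y from hc.ay).pow_right j
    rw [hcm.eq, mul_inv_cancel_right]
  have h3 : a * b ^ l * a⁻¹ = b ^ l := by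
    have hcm : Commute a (b ^ l) := (show Commute a b from hc.ab).pow_right l
    rw [hcm.eq, mul_inv_cancel_right]
  calc a * (x * y ^ j * b ^ l) * a⁻¹
      = (a * x * a⁻¹) * (a * y ^ j * a⁻¹) * (a * b ^ l * a⁻¹) := by group
    _ = x ^ 2 * y ^ j * b ^ l := by rw [h1, h2, h3]

theorem conj_b (hc : Cfg T N x y a b w) : b * (x * y) * b⁻¹ = x * y ^ 2 := by
  have h1 : b * x * b⁻¹ = x := by rw [hc.bx, mul_inv_cancel_right]
  calc b * (x * y) * b⁻¹ = (b * x * b⁻¹) * (b * y * b⁻¹) := by group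
    _ = x * y ^ 2 := by rw [h1, hc.by_, inv_y hc]

theorem b_yinv (hc : Cfg T N x y a b w) : b * y⁻¹ * b⁻¹ = y := by
  have h : b * y⁻¹ * b⁻¹ = (b * y * b⁻¹)⁻¹ := by group
  rw [h, hc.by_, inv_inv]

theorem conj_y1 (hc : Cfg T N x y a b w) : y * (x * b) * y⁻¹ = x * y ^ 2 * b := by
  calc y * (x * b) * y⁻¹ = (y * x) * (b * y⁻¹ * b⁻¹) * b := by group
    _ = (x * y) * y * b := by rw [b_yinv hc, hc.xy]
    _ = x * y ^ 2 * b := by simp only [pow_two, mul_assoc]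

theorem conj_y2 (hc : Cfg T N x y a b w) : y ^ 2 * (x * b) * (y ^ 2)⁻¹ = x * y * b := by
  calc y ^ 2 * (x * b) * (y ^ 2)⁻¹ = y * (y * (x * b) * y⁻¹) * y⁻¹ := by
        simp only [pow_two, mul_assoc, mul_inv_rev]
    _ = y * (x * y ^ 2 * b) * y⁻¹ := by rw [conj_y1 hc]
    _ = (y * x) * y ^ 2 * (b * y⁻¹ * b⁻¹) * b := by group
    _ = (x * y) * y ^ 2 * y * b := by rw [b_yinv hc, hc.xy]
    _ = x * y * y ^ 3 * b := by group
    _ = x * y * b := by rw [hc.y3, mul_one]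

theorem pow_mod3 {z : G} (h3 : z ^ 3 = 1) (i : ℕ) : z ^ (i % 3) = z ^ i := by
  conv_rhs => rw [← Nat.div_add_mod i 3, pow_add, pow_mul, h3, one_pow, one_mul]

theorem pow_mod2 {z : G} (h2 : z ^ 2 = 1) (i : ℕ) : z ^ (i % 2) = z ^ i := by
  conv_rhs => rw [← Nat.div_add_mod i 2, pow_add, pow_mul, h2, one_pow, one_mul]

theorem main (hNF : D8Stmt.NF.{u}) : D8Stmt.IP.{u} := by
  intro G _ _ T N x y a b w hc f g hom X hX
  classical
  obtain ⟨-, -, hinj, -, hcent, hfg, hcard⟩ := hNF hc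
  haveI : Fintype ↥(Subgroup.centralizer ({x} : Set G)) := Fintype.ofFinite _
  have hxH : x ∈ Subgroup.centralizer ({x} : Set G) := by
    rw [Subgroup.mem_centralizer_iff]
    intro h hh
    rw [Set.mem_singleton_iff] at hh
    rw [hh]
  have hmem : ∀ i j l : ℕ, x ^ i * y ^ j * b ^ l ∈ Subgroup.centralizer ({x} : Set G) :=
    fun i j l => (hcent _).mpr ⟨i, j, l, rfl⟩
  obtain ⟨ω, hω⟩ : ∃ ω : ℂ, ω = ((f ⟨x, hxH⟩ : ℂˣ) : ℂ) := ⟨_, rfl⟩
  have hω3 : ω ^ 3 = 1 := by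
    have h1 : (f ⟨x, hxH⟩) ^ 3 = 1 := by
      rw [← map_pow]
      have h2 : (⟨x, hxH⟩ : ↥(Subgroup.centralizer ({x} : Set G))) ^ 3 = 1 :=
        Subtype.ext (by simp [hc.x3])
      rw [h2, map_one]
    rw [hω, ← Units.val_pow_eq_pow_val, h1, Units.val_one]
  have hω1 : ω ≠ 1 := by
    intro h
    apply hom.fx hxH
    apply Units.ext
    rw [← hω, h, Units.val_one]
  have hsum : 1 + ω + ω ^ 2 = 0 := by
    have h1 : (ω - 1) * (1 + ω + ω ^ 2) = 0 := by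
      have : (ω - 1) * (1 + ω + ω ^ 2) = ω ^ 3 - 1 := by ring
      rw [this, hω3, sub_self]
    rcases mul_eq_zero.mp h1 with h | h
    · exact absurd (sub_eq_zero.mp h) hω1
    · exact h
  have hfv : ∀ i j l : ℕ, ((f ⟨x ^ i * y ^ j * b ^ l, hmem i j l⟩ : ℂˣ) : ℂ) = ω ^ i := by
    intro i j l
    rw [(hfg f g hom i j l (hmem i j l) hxH).1, Units.val_pow_eq_pow_val, hω]
  have hgv : ∀ i j l : ℕ, ((g ⟨x ^ i * y ^ j * b ^ l, hmem i j l⟩ : ℂˣ) : ℂ) = (-1) ^ l :=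
    fun i j l => (hfg f g hom i j l (hmem i j l) hxH).2
  -- the parametrization of the centralizer
  obtain ⟨e, he_def⟩ : ∃ e : Fin 3 × Fin 3 × Fin 2 → ↥(Subgroup.centralizer ({x} : Set G)),
      ∀ p, e p = ⟨x ^ (p.1 : ℕ) * y ^ (p.2.1 : ℕ) * b ^ (p.2.2 : ℕ), hmem _ _ _⟩ :=
    ⟨fun p => ⟨_, hmem _ _ _⟩, fun p => rfl⟩
  have he : Function.Bijective e := by
    constructor
    · intro p q hpq
      rw [he_def p, he_def q] at hpq
      have h1 : x ^ (p.1 : ℕ) * y ^ (p.2.1 : ℕ) * b ^ (p.2.2 : ℕ) =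
          x ^ (q.1 : ℕ) * y ^ (q.2.1 : ℕ) * b ^ (q.2.2 : ℕ) := congrArg Subtype.val hpq
      have h2 := hinj (p.1 : ℕ) (p.2.1 : ℕ) 0 (p.2.2 : ℕ) 0 (q.1 : ℕ) (q.2.1 : ℕ) 0 (q.2.2 : ℕ) 0
        (by simpa using h1)
      obtain ⟨e1, e2, -, e3, -⟩ := h2
      have f1 : (p.1 : ℕ) = (q.1 : ℕ) := by
        have := p.1.2; have := q.1.2; omega
      have f2 : (p.2.1 : ℕ) = (q.2.1 : ℕ) := by
        have := p.2.1.2; have := q.2.1.2; omega
      have f3 : (p.2.2 : ℕ) = (q.2.2 : ℕ) := by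
        have := p.2.2.2; have := q.2.2.2; omega
      exact Prod.ext (Fin.ext f1) (Prod.ext (Fin.ext f2) (Fin.ext f3))
    · intro h
      obtain ⟨i, j, l, hijl⟩ := (hcent h.1).mp h.2
      refine ⟨(⟨i % 3, Nat.mod_lt _ (by norm_num)⟩, ⟨j % 3, Nat.mod_lt _ (by norm_num)⟩,
        ⟨l % 2, Nat.mod_lt _ (by norm_num)⟩), ?_⟩
      rw [he_def]
      apply Subtype.ext
      show x ^ (i % 3) * y ^ (j % 3) * b ^ (l % 2) = h.1
      rw [pow_mod3 hc.x3, pow_mod3 hc.y3, pow_mod2 hc.b2, hijl]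
  -- class function values
  have k1 : X (x * y ^ 2) = X (x * y) := by
    rw [← conj_b hc]; exact hX _ _
  have k2 : X (x * y * b) = X (x * b) := by
    rw [← conj_y2 hc]; exact hX _ _
  have k3 : X (x * y ^ 2 * b) = X (x * b) := by
    rw [← conj_y1 hc]; exact hX _ _
  have ka : ∀ j l : ℕ, X (x ^ 2 * y ^ j * b ^ l) = X (x * y ^ j * b ^ l) := by
    intro j l
    rw [← conj_a hc]; exact hX _ _
  have hcardC : (Nat.card ↥(Subgroup.centralizer ({x} : Set G)) : ℂ) = 18 := by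
    rw [hcard]; norm_num
  have hcl : ∀ p : Fin 3 × Fin 3 × Fin 2, ((e p : ↥(Subgroup.centralizer ({x} : Set G))) : G) =
      x ^ (p.1 : ℕ) * y ^ (p.2.1 : ℕ) * b ^ (p.2.2 : ℕ) := by
    intro p; rw [he_def]
  constructor
  · have hfr := frobenius_reciprocity (Subgroup.centralizer ({x} : Set G)) (ph1 x f) X hX
    have hth : th1 x f = indFun (Subgroup.centralizer ({x} : Set G)) (ph1 x f) := rfl
    rw [hth, hfr]
    unfold classInner
    rw [hcardC, ← he.sum_comp]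
    have hterm : ∀ p : Fin 3 × Fin 3 × Fin 2,
        ph1 x f (e p) * conj (X ((e p : ↥(Subgroup.centralizer ({x} : Set G))) : G)) =
          (1 - ω ^ (p.1 : ℕ)) * conj (X (x ^ (p.1 : ℕ) * y ^ (p.2.1 : ℕ) * b ^ (p.2.2 : ℕ))) := by
      intro p
      rw [hcl p]
      unfold ph1
      rw [he_def p, hfv]
    simp only [hterm, Fintype.sum_prod_type, Fin.sum_univ_three, Fin.sum_univ_two,
      Fin.val_zero, Fin.val_one, Fin.val_two, pow_zero, pow_one, mul_one, one_mul, sub_self,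
      zero_mul, zero_add, add_zero]
    have ka1 := ka 0 0
    have ka2 := ka 1 0
    have ka3 := ka 2 0
    have ka4 := ka 0 1
    have ka5 := ka 1 1
    have ka6 := ka 2 1
    simp only [pow_zero, pow_one, mul_one] at ka1 ka2 ka3 ka4 ka5 ka6
    rw [ka1, ka2, ka3, ka4, ka5, ka6, k1, k2, k3]
    linear_combination (-(1 / 18 : ℂ) * (conj (X x) + 2 * conj (X (x * y)) +
      3 * conj (X (x * b)))) * hsum
  · have hfr := frobenius_reciprocity (Subgroup.centralizer ({x} : Set G)) (ph2 x f g) X hX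
    have hth : th2 x f g = indFun (Subgroup.centralizer ({x} : Set G)) (ph2 x f g) := rfl
    rw [hth, hfr]
    unfold classInner
    rw [hcardC, ← he.sum_comp]
    have hterm : ∀ p : Fin 3 × Fin 3 × Fin 2,
        ph2 x f g (e p) * conj (X ((e p : ↥(Subgroup.centralizer ({x} : Set G))) : G)) =
          ((-1) ^ (p.2.2 : ℕ) - ω ^ (p.1 : ℕ) * (-1) ^ (p.2.2 : ℕ)) *
            conj (X (x ^ (p.1 : ℕ) * y ^ (p.2.1 : ℕ) * b ^ (p.2.2 : ℕ))) := by
      intro p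
      rw [hcl p]
      unfold ph2
      rw [he_def p, hfv, hgv]
    simp only [hterm, Fintype.sum_prod_type, Fin.sum_univ_three, Fin.sum_univ_two,
      Fin.val_zero, Fin.val_one, Fin.val_two, pow_zero, pow_one, mul_one, one_mul, sub_self,
      zero_mul, zero_add, add_zero]
    have ka1 := ka 0 0
    have ka2 := ka 1 0
    have ka3 := ka 2 0
    have ka4 := ka 0 1
    have ka5 := ka 1 1
    have ka6 := ka 2 1
    simp only [pow_zero, pow_one, mul_one] at ka1 ka2 ka3 ka4 ka5 ka6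
    rw [ka1, ka2, ka3, ka4, ka5, ka6, k1, k2, k3]
    linear_combination (-(1 / 18 : ℂ) * (conj (X x) + 2 * conj (X (x * y)) -
      3 * conj (X (x * b)))) * hsum

end Cfsg.Agent.Lib.Helper50.D8IP

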