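import Mathlib
import Cfsg.Prelude.Def_BaumannBlocks
import Cfsg.Agent.Lib.Helper50.CD
import Cfsg.Agent.Lib.Helper50.CL

set_option autoImplicit false

namespace Cfsg.Agent.Lib.Helper50.CL2

open Subgroup
open scoped Pointwise commutatorElement
open Cfsg.Agent.Lib.Helper50.CD Cfsg.Agent.Lib.Helper50.CL

variable {G : Type*} [Group G]

theorem commutatorElement_mul_right_central (a b z : G) (hz : z * a = a * z) :
    ⁅a, b * z⁆ = ⁅a, b⁆ := by
  simp only [commutatorElement_def, mul_inv_rev]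
  have h1 : a * (b * z) * a⁻¹ = a * b * a⁻¹ * z := by
    have : z * a⁻¹ = a⁻¹ * z := by
      rw [eq_inv_mul_iff_mul_eq, ← mul_assoc, ← hz, mul_assoc, mul_inv_cancel, mul_one]
    simp only [mul_assoc]
    rw [this]
  rw [h1]
  simp only [mul_assoc, mul_inv_cancel_left]

theorem commutatorElement_mul_left_central (a b z : G) (hz : z * b = b * z) :
    ⁅a * z, b⁆ = ⁅a, b⁆ := by
  simp only [commutatorElement_def, mul_inv_rev]
  have h1 : a * z * b * (z⁻¹ * a⁻¹) = a * b * a⁻¹ := by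
    rw [mul_assoc a z b, hz]
    simp only [mul_assoc, mul_inv_cancel_left]
  rw [h1]

variable [Finite G]

/-- Decomposition of a minimal centrally large subgroup relative to another centrally large one. -/
theorem min_cl_decomp (Q R : Subgroup G) (hQ : Cfsg.IsMinimalCentrallyLarge Q)
    (hR : Cfsg.IsCentrallyLarge R) :
    (Q ⊓ R) ⊔ centralizer (Q : Set G) = Q ∧
    ((Q : Subgroup G) : Set G) = ((Q ⊓ R : Subgroup G) : Set G) * (centralizer (Q : Set G) : Set G) := by
  obtain ⟨hQ1, hQ2⟩ := centralizerLarge_of_cl Q hQ.1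
  obtain ⟨hR1, hR2⟩ := centralizerLarge_of_cl R hR
  obtain ⟨-, -, hT, hCset, hCT⟩ := cd_main Q R hQ1 hR1
  obtain ⟨hCQ, hccQ⟩ := cd_centralizer Q hQ1
  obtain ⟨hWset, hW, -, -, -⟩ := cd_main (Q ⊓ R) (centralizer (Q : Set G)) hT hCQ
  have hWle : (Q ⊓ R) ⊔ centralizer (Q : Set G) ≤ Q := sup_le inf_le_left hQ2
  have hCW : centralizer (((Q ⊓ R) ⊔ centralizer (Q : Set G) : Subgroup G) : Set G) ≤
      (Q ⊓ R) ⊔ centralizer (Q : Set G) := by
    rw [centralizer_sup_eq, hCT, ← hccQ]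
    intro x hx
    obtain ⟨hx1, hx2⟩ := Subgroup.mem_inf.mp hx
    have hx1' : x ∈ ((centralizer (Q : Set G) ⊔ centralizer (R : Set G) : Subgroup G) : Set G) := hx1
    rw [hCset] at hx1'
    obtain ⟨a, ha, b, hb, rfl⟩ := hx1'
    have hbQ : b ∈ Q := by
      have : b = a⁻¹ * (a * b) := by simp
      rw [this]
      exact mul_mem (inv_mem (hQ2 ha)) hx2
    have hbT : b ∈ Q ⊓ R := Subgroup.mem_inf.mpr ⟨hbQ, hR2 hb⟩
    exact mul_mem (le_sup_right (a := Q ⊓ R) ha) (le_sup_left (b := centralizer (Q : Set G)) hbT)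
  have hWcl : Cfsg.IsCentrallyLarge ((Q ⊓ R) ⊔ centralizer (Q : Set G)) :=
    cl_of_centralizerLarge _ hW hCW
  have hWeq : (Q ⊓ R) ⊔ centralizer (Q : Set G) = Q := hQ.2 _ hWle hWcl
  refine ⟨hWeq, ?_⟩
  rw [← hWset, hWeq]

theorem min_cl_commutator (Q R : Subgroup G) (hQ : Cfsg.IsMinimalCentrallyLarge Q)
    (hR : Cfsg.IsCentrallyLarge R) : ⁅Q, Q⁆ = ⁅Q ⊓ R, Q ⊓ R⁆ := by
  obtain ⟨-, hset⟩ := min_cl_decomp Q R hQ hR
  apply le_antisymm
  · rw [Subgroup.commutator_le]
    intro g₁ hg₁ g₂ hg₂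
    have hg₁' : g₁ ∈ ((Q : Subgroup G) : Set G) := hg₁
    have hg₂' : g₂ ∈ ((Q : Subgroup G) : Set G) := hg₂
    rw [hset] at hg₁' hg₂'
    obtain ⟨t₁, ht₁, z₁, hz₁, rfl⟩ := hg₁'
    obtain ⟨t₂, ht₂, z₂, hz₂, rfl⟩ := hg₂'
    have ht₁Q : t₁ ∈ Q := (inf_le_left : Q ⊓ R ≤ Q) ht₁
    have e1 : ⁅t₁ * z₁, t₂ * z₂⁆ = ⁅t₁, t₂ * z₂⁆ :=
      commutatorElement_mul_left_central _ _ _
        ((Subgroup.mem_centralizer_iff.mp hz₁ _ hg₂).symm)
    have e2 : ⁅t₁, t₂ * z₂⁆ = ⁅t₁, t₂⁆ :=
      commutatorElement_mul_right_central _ _ _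
        ((Subgroup.mem_centralizer_iff.mp hz₂ _ ht₁Q).symm)
    rw [e1, e2]
    exact Subgroup.commutator_mem_commutator ht₁ ht₂
  · exact Subgroup.commutator_mono inf_le_left inf_le_left

theorem inf_centralizer_eq (Q R : Subgroup G) (hQ : Cfsg.IsMinimalCentrallyLarge Q)
    (hR : Cfsg.IsMinimalCentrallyLarge R) :
    (Q ⊓ R) ⊓ centralizer (Q : Set G) ≤ (Q ⊓ R) ⊓ centralizer (R : Set G) := by
  obtain ⟨hdec, -⟩ := min_cl_decomp R Q hR hQ.1
  intro x hx
  obtain ⟨hxT, hxC⟩ := Subgroup.mem_inf.mp hx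
  refine Subgroup.mem_inf.mpr ⟨hxT, ?_⟩
  have hxR : x ∈ R := (Subgroup.mem_inf.mp hxT).2
  have h1 : x ∈ centralizer (((R ⊓ Q) ⊔ centralizer (R : Set G) : Subgroup G) : Set G) := by
    rw [centralizer_sup_eq]
    refine Subgroup.mem_inf.mpr ⟨?_, ?_⟩
    · exact centralizer_le (by
        intro y hy
        exact (Subgroup.mem_inf.mp hy).2) hxC
    · exact le_cc R hxR
  rw [hdec] at h1
  exact h1

theorem min_cl_card (Q R : Subgroup G) (hQ : Cfsg.IsMinimalCentrallyLarge Q)
    (hR : Cfsg.IsMinimalCentrallyLarge R) :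
    Nat.card Q = Nat.card R ∧
    Nat.card (centralizer (Q : Set G)) = Nat.card (centralizer (R : Set G)) := by
  obtain ⟨hQ1, hQ2⟩ := centralizerLarge_of_cl Q hQ.1
  obtain ⟨hR1, hR2⟩ := centralizerLarge_of_cl R hR.1
  obtain ⟨-, hsetQ⟩ := min_cl_decomp Q R hQ hR.1
  obtain ⟨-, hsetR⟩ := min_cl_decomp R Q hR hQ.1
  have hd : (Q ⊓ R) ⊓ centralizer (Q : Set G) = (Q ⊓ R) ⊓ centralizer (R : Set G) := by
    apply le_antisymm (inf_centralizer_eq Q R hQ hR)
    have := inf_centralizer_eq R Q hR hQ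
    rw [inf_comm R Q] at this
    exact this
  have pQ := card_mul_card_inf (Q ⊓ R) (centralizer (Q : Set G))
  rw [← hsetQ] at pQ
  have pR := card_mul_card_inf (R ⊓ Q) (centralizer (R : Set G))
  rw [← hsetR, inf_comm R Q, ← hd] at pR
  have cQ : Nat.card ((Q : Subgroup G) : Set G) = Nat.card Q := rfl
  have cR : Nat.card ((R : Subgroup G) : Set G) = Nat.card R := rfl
  rw [cQ] at pQ
  rw [cR] at pR
  set d := Nat.card ((Q ⊓ R) ⊓ centralizer (Q : Set G) : Subgroup G) with hd'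
  set t := Nat.card (Q ⊓ R : Subgroup G) with ht
  set zQ := Nat.card (centralizer (Q : Set G)) with hzQ
  set zR := Nat.card (centralizer (R : Set G)) with hzR
  have mQ : Nat.card Q * zQ = Cfsg.maxCentralizerProduct G := hQ1
  have mR : Nat.card R * zR = Cfsg.maxCentralizerProduct G := hR1
  have htpos : 0 < t := Nat.card_pos
  have hdpos : 0 < d := Nat.card_pos
  have hzQpos : 0 < zQ := Nat.card_pos
  have hzRpos : 0 < zR := Nat.card_pos
  have k1 : t * (zQ * zQ) = t * (zR * zR) := by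
    have a1 : t * (zQ * zQ) = (Nat.card Q * zQ) * d := by
      calc t * (zQ * zQ) = (t * zQ) * zQ := by ring
        _ = (Nat.card Q * d) * zQ := by rw [pQ]
        _ = _ := by ring
    have a2 : t * (zR * zR) = (Nat.card R * zR) * d := by
      calc t * (zR * zR) = (t * zR) * zR := by ring
        _ = (Nat.card R * d) * zR := by rw [pR]
        _ = _ := by ring
    rw [a1, a2, mQ, mR]
  have k2 : zQ * zQ = zR * zR := Nat.eq_of_mul_eq_mul_left htpos k1
  have k3 : zQ = zR := Nat.mul_self_inj.mp k2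
  refine ⟨?_, k3⟩
  have : Nat.card Q * zQ = Nat.card R * zQ := by rw [mQ, k3, mR]
  exact Nat.eq_of_mul_eq_mul_right hzQpos this

/-- If some minimal centrally large subgroup is abelian, the minimal centrally large subgroups are
exactly the abelian subgroups of largest order. -/
theorem min_cl_iff_maxAbelian (Q : Subgroup G) (hQ : Cfsg.IsMinimalCentrallyLarge Q)
    (hab : IsMulCommutative ↥Q) (X : Subgroup G) :
    Cfsg.IsMinimalCentrallyLarge X ↔ X ∈ Cfsg.maxAbelianSubgroups G := by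
  obtain ⟨hQ1, hQ2⟩ := centralizerLarge_of_cl Q hQ.1
  have hQle : Q ≤ centralizer (Q : Set G) := Subgroup.le_centralizer_iff_isMulCommutative.mpr hab
  have hQeq : centralizer (Q : Set G) = Q := le_antisymm hQ2 hQle
  have hm : Nat.card Q * Nat.card Q = Cfsg.maxCentralizerProduct G := by
    have : Nat.card Q * Nat.card (centralizer (Q : Set G)) = Cfsg.maxCentralizerProduct G := hQ1
    rw [hQeq] at this
    exact this
  have hbound : ∀ B : Subgroup G, IsMulCommutative ↥B → Nat.card B ≤ Nat.card Q := by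
    intro B hB
    have hBle : B ≤ centralizer (B : Set G) := Subgroup.le_centralizer_iff_isMulCommutative.mpr hB
    have h1 : Nat.card B * Nat.card B ≤ Cfsg.maxCentralizerProduct G :=
      le_trans (Nat.mul_le_mul le_rfl (Subgroup.card_le_of_le hBle)) (mu_le_max B)
    rw [← hm] at h1
    exact Nat.mul_self_le_mul_self_iff.mp h1
  constructor
  · intro hX
    obtain ⟨hX1, hX2⟩ := centralizerLarge_of_cl X hX.1
    obtain ⟨c1, c2⟩ := min_cl_card X Q hX hQ
    rw [hQeq] at c2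
    have hXeq : centralizer (X : Set G) = X :=
      Subgroup.eq_of_le_of_card_ge hX2 (by rw [c1, c2])
    refine ⟨Subgroup.le_centralizer_iff_isMulCommutative.mp (le_of_eq hXeq.symm), ?_⟩
    intro B hB
    rw [c1]
    exact hbound B hB
  · rintro ⟨hXab, hXmax⟩
    have hXle : X ≤ centralizer (X : Set G) := Subgroup.le_centralizer_iff_isMulCommutative.mpr hXab
    have hcard : Nat.card X = Nat.card Q := le_antisymm (hbound X hXab) (hXmax Q hab)
    have h1 : Nat.card X * Nat.card (centralizer (X : Set G)) ≤ Cfsg.maxCentralizerProduct G :=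
      mu_le_max X
    have hpos : 0 < Nat.card X := Nat.card_pos
    have h2 : Nat.card (centralizer (X : Set G)) ≤ Nat.card X := by
      rw [← hm, ← hcard] at h1
      exact Nat.le_of_mul_le_mul_left h1 hpos
    have hXeq : X = centralizer (X : Set G) := Subgroup.eq_of_le_of_card_ge hXle h2
    have hXcl : Cfsg.IsCentralizerLarge X := by
      show Nat.card X * Nat.card (centralizer (X : Set G)) = Cfsg.maxCentralizerProduct G
      rw [← hXeq, hcard]
      exact hm
    refine ⟨cl_of_centralizerLarge X hXcl (le_of_eq hXeq.symm), ?_⟩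
    intro X' hX'le hX'
    obtain ⟨hX'1, hX'2⟩ := centralizerLarge_of_cl X' hX'
    have hX'ab : X' ≤ centralizer (X' : Set G) :=
      le_trans hX'le (le_trans hXle (centralizer_le (by exact_mod_cast hX'le)))
    have hX'eq : centralizer (X' : Set G) = X' := le_antisymm hX'2 hX'ab
    have h3 : Nat.card X' * Nat.card X' = Nat.card Q * Nat.card Q := by
      have : Nat.card X' * Nat.card (centralizer (X' : Set G)) = Cfsg.maxCentralizerProduct G := hX'1
      rw [hX'eq] at this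
      rw [this, hm]
    have h4 : Nat.card X' = Nat.card Q := Nat.mul_self_inj.mp h3
    exact Subgroup.eq_of_le_of_card_ge hX'le (by rw [h4, hcard])

end Cfsg.Agent.Lib.Helper50.CL2
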