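import Mathlib
import Cfsg.Prelude.Def_BaumannBlocks
import Cfsg.Agent.Lib.Helper50.CD
import Cfsg.Agent.Lib.Helper50.CL
import Cfsg.Agent.Lib.Helper50.CL2

set_option autoImplicit false

namespace Cfsg.Agent.Lib.Helper50.CL3

open Subgroup
open scoped Pointwise
open Cfsg.Agent.Lib.Helper50.CD Cfsg.Agent.Lib.Helper50.CL

variable {G : Type*} [Group G]

theorem comm_sup_of (H K : Subgroup G) (hH : H ≤ centralizer (H : Set G))
    (hK : K ≤ centralizer (K : Set G)) (hHK : H ≤ centralizer (K : Set G)) :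
    IsMulCommutative ↥(H ⊔ K) := by
  rw [← Subgroup.le_centralizer_iff_isMulCommutative, centralizer_sup_eq]
  exact sup_le (le_inf hH hHK) (le_inf (le_centralizer_iff.mp hHK) hK)

variable [Finite G]

theorem exists_maxAbelian : (Cfsg.maxAbelianSubgroups G).Nonempty := by
  classical
  have : Nonempty {B : Subgroup G // IsMulCommutative ↥B} :=
    ⟨⟨⊥, by
      rw [← Subgroup.le_centralizer_iff_isMulCommutative]
      exact bot_le⟩⟩
  obtain ⟨A, hA⟩ := Finite.exists_max (fun B : {B : Subgroup G // IsMulCommutative ↥B} => Nat.card B.1)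
  exact ⟨A.1, A.2, fun B hB => hA ⟨B, hB⟩⟩

theorem maxAbelian_centralizer (A : Subgroup G) (hA : A ∈ Cfsg.maxAbelianSubgroups G) :
    centralizer (A : Set G) = A := by
  obtain ⟨hab, hmax⟩ := hA
  have hle : A ≤ centralizer (A : Set G) := Subgroup.le_centralizer_iff_isMulCommutative.mpr hab
  apply le_antisymm _ hle
  intro x hx
  have hzx : zpowers x ≤ centralizer (A : Set G) := by
    rw [Subgroup.zpowers_le]; exact hx
  have hc : IsMulCommutative ↥(A ⊔ zpowers x) := by
    apply comm_sup_of A (zpowers x) hle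
    · rw [Subgroup.le_centralizer_iff_isMulCommutative]
      infer_instance
    · exact le_centralizer_iff.mp hzx
  have h1 := hmax _ hc
  have h2 : A ⊔ zpowers x = A := (Subgroup.eq_of_le_of_card_ge le_sup_left h1).symm
  have h3 : zpowers x ≤ A := by rw [← h2]; exact le_sup_right
  exact h3 (Subgroup.mem_zpowers x)

/-- Glauberman: for a centrally large `Q` and a largest abelian `A`. -/
theorem cl_sup_maxAbelian (Q A : Subgroup G) (hQ : Cfsg.IsCentrallyLarge Q)
    (hA : A ∈ Cfsg.maxAbelianSubgroups G) :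
    ((Q ⊔ A : Subgroup G) : Set G) = (Q : Set G) * (A : Set G) ∧
    Cfsg.IsCentrallyLarge (Q ⊔ A) ∧
    ((Q ⊓ A) ⊔ centralizer (Q : Set G)) ∈ Cfsg.maxAbelianSubgroups G ∧
    (((Q ⊓ A) ⊔ centralizer (Q : Set G) : Subgroup G) : Set G) =
      ((Q ⊓ A : Subgroup G) : Set G) * (centralizer (Q : Set G) : Set G) := by
  obtain ⟨hQ1, hQ2⟩ := centralizerLarge_of_cl Q hQ
  have hCA := maxAbelian_centralizer A hA
  have hAle : A ≤ centralizer (A : Set G) := le_of_eq hCA.symm
  set Z := centralizer (Q : Set G) with hZ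
  set D := Q ⊓ A with hD
  set m := Cfsg.maxCentralizerProduct G with hm
  have hmQ : Nat.card Q * Nat.card Z = m := hQ1
  -- product formulas
  have p1 := card_mul_card_inf Q A
  have p2 := card_mul_card_inf D Z
  have hDZ : D ⊓ Z = Z ⊓ A := by
    rw [hD, inf_comm, ← inf_assoc, inf_eq_left.mpr hQ2]
  rw [hDZ] at p2
  have l1 : Nat.card ((Q : Set G) * (A : Set G) : Set G) ≤ Nat.card (Q ⊔ A : Subgroup G) :=
    card_sup_ge Q A
  have l2 : Nat.card ((D : Set G) * (Z : Set G) : Set G) ≤ Nat.card (D ⊔ Z : Subgroup G) :=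
    card_sup_ge D Z
  have hmu : Nat.card (Q ⊔ A : Subgroup G) * Nat.card (Z ⊓ A : Subgroup G) ≤ m := by
    have := mu_le_max (Q ⊔ A)
    unfold mu at this
    rw [centralizer_sup_eq, hCA] at this
    exact this
  -- D ⊔ Z is abelian
  have hDab : D ≤ centralizer (D : Set G) :=
    le_trans inf_le_right (le_trans hAle (centralizer_le (by
      intro y hy; exact (Subgroup.mem_inf.mp hy).2)))
  have hZab : Z ≤ centralizer (Z : Set G) := centralizer_le (by exact_mod_cast hQ2)
  have hDZc : D ≤ centralizer (Z : Set G) :=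
    le_trans inf_le_left (le_cc Q)
  have hBab : IsMulCommutative ↥(D ⊔ Z) := comm_sup_of D Z hDab hZab hDZc
  have l3 : Nat.card (D ⊔ Z : Subgroup G) ≤ Nat.card A := hA.2 _ hBab
  set a := Nat.card A with ha
  set q := Nat.card Q with hq
  set z := Nat.card Z with hz
  set d := Nat.card D with hd
  set e := Nat.card (Z ⊓ A : Subgroup G) with he
  set x₁ := Nat.card ((Q : Set G) * (A : Set G) : Set G) with hx₁
  set y₁ := Nat.card (Q ⊔ A : Subgroup G) with hy₁
  set x₂ := Nat.card ((D : Set G) * (Z : Set G) : Set G) with hx₂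
  set y₂ := Nat.card (D ⊔ Z : Subgroup G) with hy₂
  have hapos : 0 < a := Nat.card_pos
  have hqpos : 0 < q := Nat.card_pos
  have hzpos : 0 < z := Nat.card_pos
  have hdpos : 0 < d := Nat.card_pos
  have hepos : 0 < e := Nat.card_pos
  -- (*) : q * a * e ≤ q * z * d
  have s1 : q * (a * e) ≤ q * (z * d) := by
    calc q * (a * e) = (q * a) * e := by ring
      _ = (x₁ * d) * e := by rw [p1]
      _ ≤ (y₁ * d) * e := Nat.mul_le_mul (Nat.mul_le_mul l1 le_rfl) le_rfl
      _ = (y₁ * e) * d := by ring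
      _ ≤ m * d := Nat.mul_le_mul hmu le_rfl
      _ = q * (z * d) := by rw [← hmQ]; ring
  have s2 : a * e ≤ z * d := Nat.le_of_mul_le_mul_left s1 hqpos
  -- (**) : d * z = x₂ * e ≤ a * e
  have s3 : d * z ≤ a * e := by
    rw [← p2]
    exact Nat.mul_le_mul (le_trans l2 l3) le_rfl
  have s4 : a * e = d * z := le_antisymm (by rw [mul_comm d z]; exact s2) s3
  have hx₂ : x₂ = a := by
    have : x₂ * e = a * e := by rw [p2, s4]
    exact Nat.eq_of_mul_eq_mul_right hepos this
  have hy₂a : y₂ = a := le_antisymm l3 (hx₂ ▸ l2)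
  -- equality in the first chain
  have hx₁ : x₁ = y₁ := by
    by_contra hne
    have hlt : x₁ < y₁ := lt_of_le_of_ne l1 hne
    have : q * (a * e) < q * (z * d) := by
      calc q * (a * e) = (q * a) * e := by ring
        _ = (x₁ * d) * e := by rw [p1]
        _ < (y₁ * d) * e :=
            Nat.mul_lt_mul_of_pos_right (Nat.mul_lt_mul_of_pos_right hlt hdpos) hepos
        _ = (y₁ * e) * d := by ring
        _ ≤ m * d := Nat.mul_le_mul hmu le_rfl
        _ = q * (z * d) := by rw [← hmQ]; ring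
    rw [s4, mul_comm d z] at this
    exact lt_irrefl _ this
  have hmu_eq : y₁ * e = m := by
    by_contra hne
    have hlt : y₁ * e < m := lt_of_le_of_ne hmu hne
    have : q * (a * e) < q * (z * d) := by
      calc q * (a * e) = (q * a) * e := by ring
        _ = (x₁ * d) * e := by rw [p1]
        _ ≤ (y₁ * d) * e := Nat.mul_le_mul (Nat.mul_le_mul l1 le_rfl) le_rfl
        _ = (y₁ * e) * d := by ring
        _ < m * d := Nat.mul_lt_mul_of_pos_right hlt hdpos
        _ = q * (z * d) := by rw [← hmQ]; ring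
    rw [s4, mul_comm d z] at this
    exact lt_irrefl _ this
  refine ⟨?_, ?_, ?_, ?_⟩
  · exact coe_sup_eq_mul_of_card Q A (le_of_eq hx₁.symm)
  · apply cl_of_centralizerLarge
    · show Nat.card (Q ⊔ A : Subgroup G) * Nat.card (centralizer ((Q ⊔ A : Subgroup G) : Set G)) = m
      rw [centralizer_sup_eq, hCA]
      exact hmu_eq
    · rw [centralizer_sup_eq]
      exact le_trans inf_le_left (le_trans hQ2 le_sup_left)
  · refine ⟨hBab, ?_⟩
    intro B hB
    have : Nat.card (D ⊔ Z : Subgroup G) = a := hy₂a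
    rw [this]
    exact hA.2 B hB
  · exact coe_sup_eq_mul_of_card D Z (by rw [← hy₂, ← hx₂] at *; omega)

theorem cl_sup_maxAbelian_centralizer (Q A : Subgroup G) (hQ : Cfsg.IsCentrallyLarge Q)
    (hA : A ∈ Cfsg.maxAbelianSubgroups G) :
    (Q ⊔ A) ⊓ centralizer ((Q ⊓ A : Subgroup G) : Set G) = centralizer (Q : Set G) ⊔ A ∧
    ((centralizer (Q : Set G) ⊔ A : Subgroup G) : Set G) =
      (centralizer (Q : Set G) : Set G) * (A : Set G) := by
  obtain ⟨hQ1, hQ2⟩ := centralizerLarge_of_cl Q hQ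
  obtain ⟨hset, -, hBmax, hBset⟩ := cl_sup_maxAbelian Q A hQ hA
  have hCA := maxAbelian_centralizer A hA
  have hCB := maxAbelian_centralizer _ hBmax
  have hAD : A ≤ centralizer ((Q ⊓ A : Subgroup G) : Set G) :=
    le_trans (le_of_eq hCA.symm) (centralizer_le (by
      intro y hy; exact (Subgroup.mem_inf.mp hy).2))
  have hZD : centralizer (Q : Set G) ≤ centralizer ((Q ⊓ A : Subgroup G) : Set G) :=
    centralizer_le (by intro y hy; exact (Subgroup.mem_inf.mp hy).1)
  have key : ∀ x ∈ (Q ⊔ A) ⊓ centralizer ((Q ⊓ A : Subgroup G) : Set G),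
      x ∈ (centralizer (Q : Set G) : Set G) * (A : Set G) := by
    intro x hx
    obtain ⟨hx1, hx2⟩ := Subgroup.mem_inf.mp hx
    have hx1' : x ∈ ((Q ⊔ A : Subgroup G) : Set G) := hx1
    rw [hset] at hx1'
    obtain ⟨q, hq, a, ha, rfl⟩ := hx1'
    have hqD : q ∈ centralizer ((Q ⊓ A : Subgroup G) : Set G) := by
      have : q = (q * a) * a⁻¹ := by simp
      rw [this]
      exact mul_mem hx2 (inv_mem (hAD ha))
    have hqZ : q ∈ centralizer ((centralizer (Q : Set G) : Subgroup G) : Set G) := le_cc Q hq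
    have hqB : q ∈ centralizer ((((Q ⊓ A) ⊔ centralizer (Q : Set G) : Subgroup G)) : Set G) := by
      rw [centralizer_sup_eq]
      exact Subgroup.mem_inf.mpr ⟨hqD, hqZ⟩
    rw [hCB] at hqB
    have hqB' : q ∈ ((((Q ⊓ A) ⊔ centralizer (Q : Set G) : Subgroup G)) : Set G) := hqB
    rw [hBset] at hqB'
    obtain ⟨d, hd, z, hz, rfl⟩ := hqB'
    have hdQ : d ∈ Q := (Subgroup.mem_inf.mp hd).1
    have hdA : d ∈ A := (Subgroup.mem_inf.mp hd).2
    have hcomm : d * z = z * d := Subgroup.mem_centralizer_iff.mp hz d hdQ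
    refine ⟨z, hz, d * a, mul_mem hdA ha, ?_⟩
    show z * (d * a) = d * z * a
    rw [← mul_assoc, ← hcomm]
  have hsub : (centralizer (Q : Set G) : Set G) * (A : Set G) ⊆
      (((Q ⊔ A) ⊓ centralizer ((Q ⊓ A : Subgroup G) : Set G) : Subgroup G) : Set G) := by
    rintro _ ⟨z, hz, a, ha, rfl⟩
    refine Subgroup.mem_inf.mpr ⟨?_, ?_⟩
    · exact mul_mem (le_sup_left (b := A) (hQ2 hz)) (le_sup_right (a := Q) ha)
    · exact mul_mem (hZD hz) (hAD ha)
  have hseteq : (((Q ⊔ A) ⊓ centralizer ((Q ⊓ A : Subgroup G) : Set G) : Subgroup G) : Set G) =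
      (centralizer (Q : Set G) : Set G) * (A : Set G) :=
    Set.Subset.antisymm key hsub
  have hle1 : centralizer (Q : Set G) ⊔ A ≤ (Q ⊔ A) ⊓ centralizer ((Q ⊓ A : Subgroup G) : Set G) :=
    sup_le (le_inf (le_trans hQ2 le_sup_left) hZD) (le_inf le_sup_right hAD)
  have hle2 : (Q ⊔ A) ⊓ centralizer ((Q ⊓ A : Subgroup G) : Set G) ≤ centralizer (Q : Set G) ⊔ A := by
    intro x hx
    exact mul_subset_sup' _ _ (key x hx)
  have heq := le_antisymm hle2 hle1
  refine ⟨heq, ?_⟩
  rw [← heq]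
  exact hseteq

theorem thompsonA_le_centrallyLargeJoin :
    Cfsg.thompsonSubgroupA G ≤ Cfsg.centrallyLargeJoin G := by
  apply sSup_le
  intro A hA
  have hL := cl_centrallyLargeJoin (G := G)
  obtain ⟨-, h2, -, -⟩ := cl_sup_maxAbelian _ A hL hA
  have : Cfsg.centrallyLargeJoin G ⊔ A ≤ Cfsg.centrallyLargeJoin G := le_sSup h2
  exact le_trans le_sup_right this

theorem centralizer_center_thompsonA_le :
    centralizer ((Cfsg.thompsonSubgroupA G ⊓
      centralizer (Cfsg.thompsonSubgroupA G : Set G) : Subgroup G) : Set G) ≤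
      Cfsg.centrallyLargeJoin G := by
  have hL := cl_centrallyLargeJoin (G := G)
  obtain ⟨hL1, hL2⟩ := centralizerLarge_of_cl _ hL
  obtain ⟨-, hcc⟩ := cd_centralizer _ hL1
  have hJ := thompsonA_le_centrallyLargeJoin (G := G)
  obtain ⟨A, hA⟩ := exists_maxAbelian (G := G)
  have hAJ : A ≤ Cfsg.thompsonSubgroupA G := le_sSup hA
  have h1 : centralizer (Cfsg.centrallyLargeJoin G : Set G) ≤ Cfsg.thompsonSubgroupA G := by
    refine le_trans ?_ hAJ
    rw [← maxAbelian_centralizer A hA]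
    exact centralizer_le (by exact_mod_cast le_trans hAJ hJ)
  have h2 : centralizer (Cfsg.centrallyLargeJoin G : Set G) ≤
      centralizer (Cfsg.thompsonSubgroupA G : Set G) :=
    centralizer_le (by exact_mod_cast hJ)
  have h3 : centralizer (Cfsg.centrallyLargeJoin G : Set G) ≤
      Cfsg.thompsonSubgroupA G ⊓ centralizer (Cfsg.thompsonSubgroupA G : Set G) := le_inf h1 h2
  calc centralizer ((Cfsg.thompsonSubgroupA G ⊓
      centralizer (Cfsg.thompsonSubgroupA G : Set G) : Subgroup G) : Set G)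
      ≤ centralizer ((centralizer (Cfsg.centrallyLargeJoin G : Set G) : Subgroup G) : Set G) :=
        centralizer_le (by exact_mod_cast h3)
    _ = Cfsg.centrallyLargeJoin G := hcc.symm

end Cfsg.Agent.Lib.Helper50.CL3
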