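import Mathlib
import Cfsg.Agent.Lib.Helper44.MFldStmt
import Cfsg.Agent.Lib.Helper44.QDiag
import Cfsg.Agent.Lib.Helper45.MinusInndiag

set_option autoImplicit false

/-! Piece [MC] of S2737: the class character of the similarity group of the minus form, read
over a quadratic extension `K` (where the form is hyperbolic), from the class character of a
hyperbolic form (`GenEps`) and a root of the binary part in `K` (`RootK`). -/

namespace Cfsg.Agent.Lib.Helper50.MFldMC

open Matrix Module QuadraticMap
open Cfsg.Agent.Lib.Helper45.OmegaAut Cfsg.Agent.Lib.Helper43.H90Fin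
open Cfsg.Agent.Lib.Helper44.MFld0 Cfsg.Agent.Lib.Helper44.MaxTS
  Cfsg.Agent.Lib.Helper44.NegPairs Cfsg.Agent.Lib.Helper44.QSpace
  Cfsg.Agent.Lib.Helper44.QClass
open Cfsg.Agent.Lib.Helper44.MFldStmt

universe u

section Sep

variable {K : Type*} [Field K]

/-- Nondegeneracy of the minus-type form from the discriminant of its binary part, in every
characteristic. -/
theorem sep_minusQ_disc (m : ℕ) (a b : K) (hD : a ^ 2 - 4 * b ≠ 0) :
    Sep (minusQ m K a b) := by
  apply sep_of_H1 (minusQ m K a b) Sum.inl (minus_H1 m a b)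
  intro x hx k hk
  have h0 := hx (Pi.single (Sum.inr 0) 1)
  have h1 := hx (Pi.single (Sum.inr 1) 1)
  have e0 : polar (minusQ m K a b) x (Pi.single (Sum.inr 0) 1)
      = 2 * x (Sum.inr 0) + a * x (Sum.inr 1) := by
    show polar (Cfsg.quadFormMinus m K a b) x (Pi.single (Sum.inr 0) 1) = _
    unfold polar Cfsg.quadFormMinus
    simp
    ring
  have e1 : polar (minusQ m K a b) x (Pi.single (Sum.inr 1) 1)
      = a * x (Sum.inr 0) + 2 * b * x (Sum.inr 1) := by
    show polar (Cfsg.quadFormMinus m K a b) x (Pi.single (Sum.inr 1) 1) = _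
    unfold polar Cfsg.quadFormMinus
    simp
    ring
  rw [e0] at h0
  rw [e1] at h1
  have hx1 : x (Sum.inr 1) = 0 := by
    have : (a ^ 2 - 4 * b) * x (Sum.inr 1) = 0 := by linear_combination a * h0 - 2 * h1
    exact (mul_eq_zero.mp this).resolve_left hD
  have hx0 : x (Sum.inr 0) = 0 := by
    have : (a ^ 2 - 4 * b) * x (Sum.inr 0) = 0 := by linear_combination a * h1 - 2 * b * h0
    exact (mul_eq_zero.mp this).resolve_left hD
  rcases k with c | t
  · exact absurd ⟨c, rfl⟩ hk
  · fin_cases t
    · exact hx0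
    · exact hx1

end Sep

section Disc

variable {F : Type*} [Field F] [Finite F]

/-- The discriminant of an anisotropic binary form over a finite field is nonzero. -/
theorem disc_ne_zero {a b : F} (hab : Aniso a b) : a ^ 2 - 4 * b ≠ 0 := by
  haveI : Fintype F := Fintype.ofFinite F
  by_cases h2 : (2 : F) = 0
  · intro hD
    have h4 : (4 : F) = 0 := by
      have : (4 : F) = 2 * 2 := by norm_num
      rw [this, h2, mul_zero]
    rw [h4, zero_mul, sub_zero] at hD
    have ha : a = 0 := pow_eq_zero_iff (two_ne_zero) |>.mp hD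
    have hch : ringChar F = 2 := CharP.ringChar_of_prime_eq_zero Nat.prime_two h2
    obtain ⟨c, hc⟩ := FiniteField.isSquare_of_char_two hch b
    have h := (hab c 1 (by
      rw [ha, hc]
      have : c ^ 2 + 0 * c * 1 + c * c * 1 ^ 2 = 2 * (c * c) := by ring
      rw [this, h2, zero_mul])).2
    exact one_ne_zero h
  · exact Cfsg.Agent.Lib.Helper45.MinusInndiag.disc_ne h2 hab

end Disc

section BaseChange

variable {F : Type u} [Field F] {K : Type u} [Field K] (f : F →+* K) (m : ℕ) (a b : F)

theorem comp_single (j : MI m) : f ∘ (Pi.single j (1 : F) : MI m → F) = Pi.single j (1 : K) := by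
  funext i
  by_cases h : i = j
  · subst h; simp
  · simp [Pi.single_apply, h]

theorem comp_add (v w : MI m → F) : f ∘ (v + w) = f ∘ v + f ∘ w := by
  funext i
  simp

/-- the minus form at `F`-points -/
theorem qK_comp (v : MI m → F) :
    Cfsg.quadFormMinus m K (f a) (f b) (f ∘ v) = f (Cfsg.quadFormMinus m F a b v) :=
  Cfsg.Agent.Lib.Helper45.MinusInndiag.minus_map f m a b v

theorem map_mulVec_comp (M : Matrix (MI m) (MI m) F) (v : MI m → F) :
    M.map f *ᵥ (f ∘ v) = f ∘ (M *ᵥ v) := by
  funext i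
  exact (RingHom.map_mulVec f M v i).symm

/-- A similarity over `F` is a similarity over `K`. -/
theorem sim_map (M : Matrix (MI m) (MI m) F) (c : F)
    (hM : ∀ v, Cfsg.quadFormMinus m F a b (M *ᵥ v) = c * Cfsg.quadFormMinus m F a b v) :
    ∀ w : MI m → K, Cfsg.quadFormMinus m K (f a) (f b) (M.map f *ᵥ w)
      = f c * Cfsg.quadFormMinus m K (f a) (f b) w := by
  have hpt : ∀ v : MI m → F, Cfsg.quadFormMinus m K (f a) (f b) (M.map f *ᵥ (f ∘ v))
      = f c * Cfsg.quadFormMinus m K (f a) (f b) (f ∘ v) := by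
    intro v
    rw [map_mulVec_comp, qK_comp, qK_comp, hM, map_mul]
  have hQ : (minusQ m K (f a) (f b)).comp (Matrix.toLin' (M.map f))
      = f c • minusQ m K (f a) (f b) := by
    apply Cfsg.Agent.Lib.Helper44.QDiag.quad_ext_basis (Pi.basisFun K (MI m))
    · intro i
      rw [Pi.basisFun_apply, ← comp_single f m i]
      show Cfsg.quadFormMinus m K (f a) (f b) (Matrix.toLin' (M.map f) (f ∘ Pi.single i 1))
        = f c * Cfsg.quadFormMinus m K (f a) (f b) (f ∘ Pi.single i 1)
      rw [Matrix.toLin'_apply]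
      exact hpt _
    · intro i j
      rw [Pi.basisFun_apply, Pi.basisFun_apply, ← comp_single f m i, ← comp_single f m j]
      unfold polar
      rw [← comp_add]
      show Cfsg.quadFormMinus m K (f a) (f b)
            (Matrix.toLin' (M.map f) (f ∘ (Pi.single i 1 + Pi.single j 1)))
          - Cfsg.quadFormMinus m K (f a) (f b) (Matrix.toLin' (M.map f) (f ∘ Pi.single i 1))
          - Cfsg.quadFormMinus m K (f a) (f b) (Matrix.toLin' (M.map f) (f ∘ Pi.single j 1))
        = f c * Cfsg.quadFormMinus m K (f a) (f b) (f ∘ (Pi.single i 1 + Pi.single j 1))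
          - f c * Cfsg.quadFormMinus m K (f a) (f b) (f ∘ Pi.single i 1)
          - f c * Cfsg.quadFormMinus m K (f a) (f b) (f ∘ Pi.single j 1)
      rw [Matrix.toLin'_apply, Matrix.toLin'_apply, Matrix.toLin'_apply, hpt, hpt, hpt]
  intro w
  have h := DFunLike.congr_fun hQ w
  rw [QuadraticMap.comp_apply, Matrix.toLin'_apply] at h
  exact h

theorem map_mem (g : GL (MI m) F)
    (hg : g ∈ Cfsg.Geo.quadSimilarityGroup (F := F) (Cfsg.quadFormMinus m F a b)) :
    Matrix.GeneralLinearGroup.map f g ∈
      Cfsg.Geo.quadSimilarityGroup (F := K) (Cfsg.quadFormMinus m K (f a) (f b)) := by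
  obtain ⟨c, hc⟩ := hg
  refine ⟨Units.map (f : F →* K) c, fun w => ?_⟩
  exact sim_map f m a b (g : Matrix (MI m) (MI m) F) (c : F) hc w

/-- base change of similarities -/
def bc : GOq (Cfsg.quadFormMinus m F a b) →* GOq (Cfsg.quadFormMinus m K (f a) (f b)) where
  toFun g := ⟨Matrix.GeneralLinearGroup.map f g, map_mem f m a b g g.2⟩
  map_one' := Subtype.ext (map_one _)
  map_mul' _ _ := Subtype.ext (map_mul _ _ _)

theorem bc_coe (g : GOq (Cfsg.quadFormMinus m F a b)) :
    (((bc f m a b g : GOq (Cfsg.quadFormMinus m K (f a) (f b))) : GL (MI m) K) :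
        Matrix (MI m) (MI m) K) = ((g : GL (MI m) F) : Matrix (MI m) (MI m) F).map f := rfl

theorem polarVec_comp (w : MI m → F) (j : MI m) :
    Cfsg.polarVec (Cfsg.quadFormMinus m K (f a) (f b)) (f ∘ w) j
      = f (Cfsg.polarVec (Cfsg.quadFormMinus m F a b) w j) := by
  unfold Cfsg.polarVec polar
  rw [← comp_single f m j, ← comp_add, qK_comp, qK_comp, qK_comp, map_sub, map_sub]

theorem refl_map (w : MI m → F) :
    (Cfsg.reflectionMatrix (Cfsg.quadFormMinus m F a b) w).map f
      = Cfsg.reflectionMatrix (Cfsg.quadFormMinus m K (f a) (f b)) (f ∘ w) := by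
  ext i j
  unfold Cfsg.reflectionMatrix
  rw [Matrix.map_apply, Matrix.sub_apply, Matrix.sub_apply, Matrix.smul_apply, Matrix.smul_apply,
    Matrix.vecMulVec_apply, Matrix.vecMulVec_apply, polarVec_comp, qK_comp, map_sub, smul_eq_mul,
    smul_eq_mul, map_mul, map_mul, map_inv₀]
  congr 1
  by_cases h : i = j
  · subst h; simp
  · simp [Matrix.one_apply, h]

end BaseChange

theorem main (hRK : RootK.{u}) (hGE : GenEps.{u}) : MinusCharK.{u} := by
  intro F _ _ m a b hab K _ _ hK
  classical
  have hfin : Module.Finite F K := Module.finite_of_finrank_pos (by rw [hK]; norm_num)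
  have hK' : Finite K := Module.finite_of_finite F
  letI : Fintype K := Fintype.ofFinite K
  obtain ⟨ρ₀, hρ⟩ := hRK F a b hab K hK
  have hD : (algebraMap F K a) ^ 2 - 4 * algebraMap F K b ≠ 0 := by
    have h1 := disc_ne_zero hab
    intro h
    apply h1
    apply (algebraMap F K).injective
    rw [map_sub, map_pow, map_mul, map_ofNat, map_zero]
    exact h
  have hS : Sep (minusQ m K (algebraMap F K a) (algebraMap F K b)) := sep_minusQ_disc m _ _ hD
  have hTS := Cfsg.Agent.Lib.Helper45.MinusInndiag.ts_X0 hS hρ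
  have hcard : Fintype.card (MI m) = 2 * (m + 1) := by
    simp only [Fintype.card_sum, Fintype.card_fin]; omega
  obtain ⟨ε, hε1, hε2⟩ := hGE K (MI m) (minusQ m K (algebraMap F K a) (algebraMap F K b)) (m + 1)
    hS hcard ⟨_, hTS⟩
  refine ⟨ε.comp (bc (algebraMap F K) m a b), ?_, ?_⟩
  · intro g
    exact hε1 (bc (algebraMap F K) m a b g)
  · intro w hw ρ hρm
    refine hε2 ((algebraMap F K) ∘ w) ?_ (bc (algebraMap F K) m a b ρ) ?_
    · show Cfsg.quadFormMinus m K (algebraMap F K a) (algebraMap F K b) ((algebraMap F K) ∘ w) ≠ 0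
      rw [qK_comp]
      intro h
      apply hw
      apply (algebraMap F K).injective
      rw [h, map_zero]
    · rw [bc_coe, hρm]
      exact refl_map (algebraMap F K) m a b w

end Cfsg.Agent.Lib.Helper50.MFldMC
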