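import Mathlib
import Cfsg.Agent.Lib.Lead.MaxStmt

/-!
# Piece CARD of S2245: in case II the degree is `2 ^ k + 1`
-/

set_option autoImplicit false

namespace Cfsg.Agent.Lib.Helper50.MaxCARD

open Equiv MulAction Cfsg.Agent.Lib.Lead.MaxStmt Cfsg.Agent.Lib.Lead.SylTwoSym
open scoped Pointwise

theorem main : Cfsg.Agent.Lib.Lead.MaxStmt.CardOf := by
  intro Ω _ _ Q u hQ hII hcard
  obtain ⟨hfix, htr⟩ := hII
  -- a point different from `u`
  have hex : ∃ p : Ω, p ≠ u := by
    by_contra hcon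
    have hcon' : ∀ a : Ω, a = u := fun a => by
      by_contra ha
      exact hcon ⟨a, ha⟩
    have : Fintype.card Ω ≤ 1 :=
      Fintype.card_le_one_iff.mpr (fun a b => (hcon' a).trans (hcon' b).symm)
    omega
  obtain ⟨p, hp⟩ := hex
  have horb : MulAction.orbit (↥Q) p = ({u}ᶜ : Set Ω) := by
    ext y
    simp only [MulAction.mem_orbit_iff, Set.mem_compl_iff, Set.mem_singleton_iff]
    constructor
    · rintro ⟨g, rfl⟩ h
      have h1 : (g : Perm Ω) p = u := h
      have h2 : (g : Perm Ω) u = u := hfix g g.2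
      exact hp ((g : Perm Ω).injective (h1.trans h2.symm))
    · intro hy
      obtain ⟨g, hg, hgp⟩ := htr p y hp hy
      exact ⟨⟨g, hg⟩, hgp⟩
  obtain ⟨k, hk⟩ := hQ.card_orbit p
  refine ⟨k, ?_⟩
  rw [horb] at hk
  have h3 : Nat.card (({u}ᶜ : Set Ω)) = Fintype.card Ω - 1 := by
    rw [Nat.card_eq_fintype_card, Fintype.card_compl_set]
    simp
  rw [h3] at hk
  omega

end Cfsg.Agent.Lib.Helper50.MaxCARD
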