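import Mathlib
import Cfsg.Agent.Lib.Helper2.FusCtl
import Cfsg.Agent.Lib.Helper24.Coprime
import Cfsg.Agent.Lib.Helper50.PAct
import Cfsg.Agent.Lib.Helper76.SylowTools
import Cfsg.Agent.S0023

set_option autoImplicit false

/-!
# Groups with a nilpotent maximal subgroup of class at most two

`Cfg p M P` packages what is used about a core-free maximal subgroup `M` and its
Sylow `p`-subgroup `P` (of class at most two): `P` is then a Sylow subgroup of the whole
group which controls its own fusion, so the group has a normal `p`-complement.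
-/

namespace Cfsg.Agent.Lib.Helper50.MaxNil

open scoped commutatorElement Pointwise

universe u

variable {G : Type u} [Group G]

/-- The configuration. -/
structure Cfg (p : ℕ) (M P : Subgroup G) : Prop where
  le : P ≤ M
  pgrp : IsPGroup p P
  ne : P ≠ ⊥
  pelt : ∀ x ∈ M, (∃ k : ℕ, x ^ p ^ k = 1) → x ∈ P
  conj : ∀ m ∈ M, ∃ z ∈ P, ∀ x ∈ P, m * x * m⁻¹ = z * x * z⁻¹
  comm : ∀ t ∈ P, ∀ d ∈ P, ∀ x ∈ P, ⁅t, d⁆ * x = x * ⁅t, d⁆
  nrm : ∀ C : Subgroup G, C ≤ M → C ≠ ⊥ → M ≤ Subgroup.normalizer (C : Set G) →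
    Subgroup.normalizer (C : Set G) ≤ M

theorem mem_normalizer_of_conj_subset [Finite G] (S : Subgroup G) (y : G)
    (h : ∀ s ∈ S, y * s * y⁻¹ ∈ S) : y ∈ Subgroup.normalizer (S : Set G) := by
  rw [Subgroup.mem_normalizer_iff]
  intro g
  refine ⟨h g, fun hg => ?_⟩
  let f : S → S := fun s => ⟨y * s.1 * y⁻¹, h s.1 s.2⟩
  have hinj : Function.Injective f := by
    intro a b hab
    have : y * a.1 * y⁻¹ = y * b.1 * y⁻¹ := congrArg Subtype.val hab
    apply Subtype.ext
    simpa using this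
  have hsurj : Function.Surjective f := Finite.injective_iff_surjective.mp hinj
  obtain ⟨s, hs⟩ := hsurj ⟨y * g * y⁻¹, hg⟩
  have : y * s.1 * y⁻¹ = y * g * y⁻¹ := congrArg Subtype.val hs
  have hsg : s.1 = g := by simpa using this
  rw [← hsg]
  exact s.2

theorem conj_inv_pow (u a : G) (n : ℕ) : (u⁻¹ * a * u) ^ n = u⁻¹ * a ^ n * u := by
  have := conj_pow (a := u⁻¹) (b := a) (i := n)
  simpa using this

theorem center_ne_bot [Finite G] {p : ℕ} [Fact p.Prime] {P : Subgroup G} (hP : IsPGroup p P)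
    (hne : P ≠ ⊥) : P ⊓ Subgroup.centralizer (P : Set G) ≠ ⊥ := by
  haveI : Nontrivial P := (Subgroup.nontrivial_iff_ne_bot P).mpr hne
  haveI := hP.center_nontrivial
  obtain ⟨z, hz1⟩ := exists_ne (1 : Subgroup.center P)
  intro hbot
  apply hz1
  have hmem : (z.1 : G) ∈ P ⊓ Subgroup.centralizer (P : Set G) := by
    refine Subgroup.mem_inf.mpr ⟨z.1.2, ?_⟩
    rw [Subgroup.mem_centralizer_iff]
    intro x hx
    have := (Subgroup.mem_center_iff.mp z.2) ⟨x, hx⟩
    exact congrArg Subtype.val this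
  rw [hbot, Subgroup.mem_bot] at hmem
  apply Subtype.ext
  apply Subtype.ext
  simpa using hmem

namespace Cfg

variable {p : ℕ} {M P : Subgroup G}

theorem le_normalizer (h : Cfg p M P) : M ≤ Subgroup.normalizer (P : Set G) := by
  apply Helper76.SylowTools.le_normalizer_of_conj_mem
  intro m hm x hx
  obtain ⟨z, hz, hzx⟩ := h.conj m hm
  rw [hzx x hx]
  exact P.mul_mem (P.mul_mem hz hx) (P.inv_mem hz)

theorem normalizer_le (h : Cfg p M P) : Subgroup.normalizer (P : Set G) ≤ M :=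
  h.nrm P h.le h.ne h.le_normalizer

theorem central (h : Cfg p M P) {a : G} (ha : a ∈ P ⊓ Subgroup.centralizer (P : Set G))
    {x : G} (hx : x ∈ P) : x * a = a * x :=
  (Subgroup.mem_centralizer_iff.mp (Subgroup.mem_inf.mp ha).2) x hx

theorem comm_mem (h : Cfg p M P) {t d : G} (ht : t ∈ P) (hd : d ∈ P) :
    ⁅t, d⁆ ∈ P ⊓ Subgroup.centralizer (P : Set G) := by
  refine Subgroup.mem_inf.mpr ⟨?_, ?_⟩
  · rw [commutatorElement_def]
    exact P.mul_mem (P.mul_mem (P.mul_mem ht hd) (P.inv_mem ht)) (P.inv_mem hd)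
  · rw [Subgroup.mem_centralizer_iff]
    intro x hx
    exact (h.comm t ht d hd x hx).symm

theorem conj_fix (h : Cfg p M P) {m : G} (hm : m ∈ M) {a : G}
    (ha : a ∈ P ⊓ Subgroup.centralizer (P : Set G)) : m * a * m⁻¹ = a := by
  obtain ⟨z, hz, hzx⟩ := h.conj m hm
  rw [hzx a (Subgroup.mem_inf.mp ha).1, h.central ha hz]
  group

theorem center_le_normalizer (h : Cfg p M P) :
    M ≤ Subgroup.normalizer ((P ⊓ Subgroup.centralizer (P : Set G) : Subgroup G) : Set G) := by
  apply Helper76.SylowTools.le_normalizer_of_conj_mem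
  intro m hm a ha
  rw [h.conj_fix hm ha]
  exact ha

theorem normalizer_center_le [Finite G] [Fact p.Prime] (h : Cfg p M P) :
    Subgroup.normalizer ((P ⊓ Subgroup.centralizer (P : Set G) : Subgroup G) : Set G) ≤ M :=
  h.nrm _ (inf_le_left.trans h.le) (center_ne_bot h.pgrp h.ne) h.center_le_normalizer

theorem pelt_conj (h : Cfg p M P) {t : G} (ht : t ∈ P) : ∃ k : ℕ, t ^ p ^ k = 1 := by
  obtain ⟨k, hk⟩ := h.pgrp ⟨t, ht⟩
  exact ⟨k, congrArg Subtype.val hk⟩


/-- Weak closure of the centre: a conjugate of `Z(P)` inside `P` comes from `M`. -/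
theorem weakly_closed [Finite G] [Fact p.Prime] (h : Cfg p M P) (u : G)
    (hu : ∀ a ∈ P ⊓ Subgroup.centralizer (P : Set G), u * a * u⁻¹ ∈ P) : u ∈ M := by
  -- Step A: `Z ≤ u P u⁻¹`
  have hA : ∀ a ∈ P ⊓ Subgroup.centralizer (P : Set G), u⁻¹ * a * u ∈ P := by
    intro a ha
    apply h.pelt
    · apply h.normalizer_center_le
      apply Subgroup.centralizer_le_normalizer
      rw [Subgroup.mem_centralizer_iff]
      intro z hz
      have e := h.central ha (hu z hz)
      calc z * (u⁻¹ * a * u) = u⁻¹ * (u * z * u⁻¹ * a) * u := by group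
        _ = u⁻¹ * (a * (u * z * u⁻¹)) * u := by rw [e]
        _ = u⁻¹ * a * u * z := by group
    · obtain ⟨k, hk⟩ := h.pelt_conj (Subgroup.mem_inf.mp ha).1
      exact ⟨k, by rw [conj_inv_pow, hk]; group⟩
  -- the intersection
  set D : Subgroup G := P ⊓ P.map (MulAut.conj u).toMonoidHom with hD
  have hmemD : ∀ d : G, d ∈ D ↔ d ∈ P ∧ u⁻¹ * d * u ∈ P := by
    intro d
    rw [hD, Subgroup.mem_inf, Helper76.SylowTools.mem_map_conj]
  have hZD : P ⊓ Subgroup.centralizer (P : Set G) ≤ D := by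
    intro a ha
    exact (hmemD a).mpr ⟨(Subgroup.mem_inf.mp ha).1, hA a ha⟩
  have hDM : D ≤ M := inf_le_left.trans h.le
  have hDne : D ≠ ⊥ := by
    intro hbot
    exact center_ne_bot h.pgrp h.ne (le_bot_iff.mp (hbot ▸ hZD))
  have hMD : M ≤ Subgroup.normalizer (D : Set G) := by
    apply Helper76.SylowTools.le_normalizer_of_conj_mem
    intro m hm d hd
    have hdP := ((hmemD d).mp hd).1
    obtain ⟨z, hz, hzx⟩ := h.conj m hm
    rw [hzx d hdP]
    have e : z * d * z⁻¹ = ⁅z, d⁆ * d := by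
      rw [commutatorElement_def]; group
    rw [e]
    exact D.mul_mem (hZD (h.comm_mem hz hdP)) hd
  have hND : Subgroup.normalizer (D : Set G) ≤ M := h.nrm D hDM hDne hMD
  -- `u P u⁻¹` normalizes `D`
  have hE : ∀ t ∈ P, u * t * u⁻¹ ∈ Subgroup.normalizer (D : Set G) := by
    intro t ht
    apply mem_normalizer_of_conj_subset
    intro d hd
    obtain ⟨hdP, hdP'⟩ := (hmemD d).mp hd
    have e : u * t * u⁻¹ * d * (u * t * u⁻¹)⁻¹ = u * ⁅t, u⁻¹ * d * u⁆ * u⁻¹ * d := by
      rw [commutatorElement_def]; group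
    rw [e]
    have hc := h.comm_mem ht hdP'
    refine D.mul_mem ((hmemD _).mpr ⟨hu _ hc, ?_⟩) hd
    have e2 : u⁻¹ * (u * ⁅t, u⁻¹ * d * u⁆ * u⁻¹) * u = ⁅t, u⁻¹ * d * u⁆ := by group
    rw [e2]
    exact (Subgroup.mem_inf.mp hc).1
  have hF : ∀ t ∈ P, u * t * u⁻¹ ∈ P := by
    intro t ht
    apply h.pelt _ (hND (hE t ht))
    obtain ⟨k, hk⟩ := h.pelt_conj ht
    exact ⟨k, by rw [conj_pow, hk]; group⟩
  exact h.normalizer_le (mem_normalizer_of_conj_subset P u hF)

/-- `P` is a Sylow subgroup of the whole group. -/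
theorem exists_sylow [Finite G] [Fact p.Prime] (h : Cfg p M P) :
    ∃ S : Sylow p G, (S : Subgroup G) = P := by
  obtain ⟨S, hS⟩ := h.pgrp.exists_le_sylow
  refine ⟨S, ?_⟩
  by_contra hne
  obtain ⟨y, hyS, hyN, hyP⟩ :=
    PAct.exists_mem_normalizer_not_mem (S : Subgroup G) P S.isPGroup' hS (fun e => hne e.symm)
  apply hyP
  apply h.pelt y (h.normalizer_le hyN)
  obtain ⟨k, hk⟩ := S.isPGroup' ⟨y, hyS⟩
  exact ⟨k, congrArg Subtype.val hk⟩

end Cfg

/-- Two `p`-subgroups of a subgroup `H` can be moved into a common conjugate of a Sylow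
`p`-subgroup, moving the second one by an element of `H` first. -/
theorem exists_conj_le_conj [Finite G] {p : ℕ} [Fact p.Prime] (P : Sylow p G)
    (H A B : Subgroup G) (hA : A ≤ H) (hB : B ≤ H) (hpA : IsPGroup p A) (hpB : IsPGroup p B) :
    ∃ c ∈ H, ∃ g : G, (∀ a ∈ A, g⁻¹ * a * g ∈ P) ∧
      (∀ b ∈ B, g⁻¹ * (c * b * c⁻¹) * g ∈ P) := by
  have hA' : IsPGroup p (A.subgroupOf H) := hpA.comap_subtype
  have hB' : IsPGroup p (B.subgroupOf H) := hpB.comap_subtype
  obtain ⟨SA, hSA⟩ := hA'.exists_le_sylow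
  obtain ⟨SB, hSB⟩ := hB'.exists_le_sylow
  obtain ⟨c, hc⟩ := MulAction.exists_smul_eq H SB SA
  have hT : IsPGroup p ((SA : Subgroup H).map H.subtype) := SA.isPGroup'.map _
  obtain ⟨S', hS'⟩ := hT.exists_le_sylow
  obtain ⟨g, hg⟩ := MulAction.exists_smul_eq G P S'
  refine ⟨c.1, c.2, g, ?_, ?_⟩
  · intro a ha
    have h1 : (⟨a, hA ha⟩ : H) ∈ SA := hSA (Subgroup.mem_subgroupOf.mpr ha)
    have h2 : a ∈ S' := hS' ⟨⟨a, hA ha⟩, h1, rfl⟩
    rw [← hg] at h2
    exact (Helper2.FusCtl.mem_smul_sylow P g a).mp h2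
  · intro b hb
    have h1 : (⟨b, hB hb⟩ : H) ∈ SB := hSB (Subgroup.mem_subgroupOf.mpr hb)
    have h2 : c * ⟨b, hB hb⟩ * c⁻¹ ∈ SA := by
      rw [← hc]
      refine (Helper2.FusCtl.mem_smul_sylow SB c _).mpr ?_
      have e : c⁻¹ * (c * ⟨b, hB hb⟩ * c⁻¹) * c = (⟨b, hB hb⟩ : H) := by group
      rw [e]
      exact h1
    have h3 : c.1 * b * c.1⁻¹ ∈ S' := hS' ⟨c * ⟨b, hB hb⟩ * c⁻¹, h2, rfl⟩
    rw [← hg] at h3
    exact (Helper2.FusCtl.mem_smul_sylow P g _).mp h3

namespace Cfg

variable {p : ℕ} {M P : Subgroup G}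

/-- `P` controls its own fusion. -/
theorem control [Finite G] [Fact p.Prime] (h : Cfg p M P) (S : Sylow p G)
    (hS : (S : Subgroup G) = P) :
    ∀ x ∈ S, ∀ y ∈ S, (∃ g : G, g * x * g⁻¹ = y) → ∃ z ∈ S, z * x * z⁻¹ = y := by
  intro x hx y hy ⟨g, hg⟩
  have hxP : x ∈ P := hS ▸ hx
  have hyP : y ∈ P := hS ▸ hy
  set Z : Subgroup G := P ⊓ Subgroup.centralizer (P : Set G) with hZ
  have hZp : IsPGroup p Z := h.pgrp.to_le inf_le_left
  have hA : Z ≤ Subgroup.centralizer ({y} : Set G) := by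
    intro a ha
    rw [Subgroup.mem_centralizer_iff]
    intro w hw
    rw [Set.mem_singleton_iff] at hw
    rw [hw]
    exact h.central ha hyP
  have hB : Z.map (MulAut.conj g).toMonoidHom ≤ Subgroup.centralizer ({y} : Set G) := by
    rintro b ⟨a, ha, rfl⟩
    rw [Subgroup.mem_centralizer_iff]
    intro w hw
    rw [Set.mem_singleton_iff] at hw
    rw [hw, ← hg]
    have e := h.central ha hxP
    change g * x * g⁻¹ * (g * a * g⁻¹) = g * a * g⁻¹ * (g * x * g⁻¹)
    calc g * x * g⁻¹ * (g * a * g⁻¹) = g * (x * a) * g⁻¹ := by group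
      _ = g * (a * x) * g⁻¹ := by rw [e]
      _ = g * a * g⁻¹ * (g * x * g⁻¹) := by group
  obtain ⟨c, hc, k, hk1, hk2⟩ := exists_conj_le_conj S (Subgroup.centralizer ({y} : Set G)) Z
    (Z.map (MulAut.conj g).toMonoidHom) hA hB hZp (hZp.map _)
  have hkM : k⁻¹ ∈ M := by
    apply h.weakly_closed
    intro a ha
    have := hk1 a ha
    rw [inv_inv]
    exact hS ▸ this
  have hkM' : k ∈ M := by simpa using M.inv_mem hkM
  have hnM : k⁻¹ * c * g ∈ M := by
    apply h.weakly_closed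
    intro a ha
    have := hk2 (g * a * g⁻¹) ⟨a, ha, rfl⟩
    have e : k⁻¹ * c * g * a * (k⁻¹ * c * g)⁻¹ = k⁻¹ * (c * (g * a * g⁻¹) * c⁻¹) * k := by group
    rw [e]
    exact hS ▸ this
  have hn : c * g ∈ M := by
    have := M.mul_mem hkM' hnM
    have e : k * (k⁻¹ * c * g) = c * g := by group
    rwa [e] at this
  have hcy : y * c = c * y := by
    have := (Subgroup.mem_centralizer_iff.mp hc) y (Set.mem_singleton y)
    exact this
  obtain ⟨z, hz, hzx⟩ := h.conj (c * g) hn
  have hzS : z ∈ S := by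
    have : z ∈ (S : Subgroup G) := by rw [hS]; exact hz
    exact this
  refine ⟨z, hzS, ?_⟩
  rw [← hzx x hxP]
  calc c * g * x * (c * g)⁻¹ = c * (g * x * g⁻¹) * c⁻¹ := by group
    _ = c * y * c⁻¹ := by rw [hg]
    _ = y := by rw [← hcy]; group

/-- The normal `p`-complement. -/
theorem exists_normal_complement [Finite G] [Fact p.Prime] (h : Cfg p M P) :
    ∃ K : Subgroup G, K.Normal ∧ ¬ p ∣ Nat.card K ∧ (∃ n : ℕ, K.index = p ^ n) ∧
      ¬ p ∣ M.index := by
  obtain ⟨S, hS⟩ := h.exists_sylow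
  obtain ⟨K, hKn, hKc⟩ := Helper2.FusCtl.exists_normal_complement S (h.control S hS)
  refine ⟨K, hKn, ?_, ?_, ?_⟩
  · have h1 : (S : Subgroup G).index = Nat.card K := hKc.index_eq_card
    rw [← h1]
    exact S.not_dvd_index
  · have h1 : K.index = Nat.card (S : Subgroup G) := hKc.symm.index_eq_card
    obtain ⟨n, hn⟩ := S.isPGroup'.exists_card_eq
    exact ⟨n, by rw [h1]; exact hn⟩
  · intro hdvd
    apply S.not_dvd_index
    have hSM : (S : Subgroup G) ≤ M := hS ▸ h.le
    rw [← Subgroup.relIndex_mul_index hSM]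
    exact Dvd.dvd.mul_left hdvd _

end Cfg

/-- The configuration holds for a core-free maximal subgroup which is nilpotent of class at
most two. -/
theorem cfg_of_maximal [Finite G] {p : ℕ} [Fact p.Prime] (M : Subgroup G)
    (hmax : ∀ H : Subgroup G, M ≤ H → H = M ∨ H = ⊤) (hnil : Group.IsNilpotent M)
    (hcl : ∀ x ∈ M, ∀ y ∈ M, ∀ z ∈ M, ⁅⁅x, y⁆, z⁆ = 1) (hcore : M.normalCore = ⊥)
    (hp : p ∣ Nat.card M) : ∃ P : Subgroup G, Cfg p M P := by
  have hpp : p.Prime := Fact.out
  obtain ⟨P0⟩ := (inferInstance : Nonempty (Sylow p M))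
  haveI hP0n : (P0 : Subgroup M).Normal :=
    Sylow.normal_of_normalizerCondition Group.normalizerCondition_of_isNilpotent P0
  set P : Subgroup G := (P0 : Subgroup M).map M.subtype with hPdef
  have hle : P ≤ M := Subgroup.map_subtype_le _
  have hpg : IsPGroup p P := P0.isPGroup'.map _
  have hMN : M ≤ Subgroup.normalizer (P : Set G) := by
    apply Helper76.SylowTools.le_normalizer_of_conj_mem
    rintro m hm _ ⟨y, hy, rfl⟩
    exact ⟨⟨m, hm⟩ * y * ⟨m, hm⟩⁻¹, hP0n.conj_mem y hy ⟨m, hm⟩, rfl⟩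
  have hpelt : ∀ x ∈ M, (∃ k : ℕ, x ^ p ^ k = 1) → x ∈ P := by
    intro x hx ⟨k, hk⟩
    have hxk : (⟨x, hx⟩ : M) ^ p ^ k = 1 := Subtype.ext (by simpa using hk)
    have hz : IsPGroup p (Subgroup.zpowers (⟨x, hx⟩ : M)) := by
      rintro ⟨g, hg⟩
      obtain ⟨i, rfl⟩ := Subgroup.mem_zpowers_iff.mp hg
      refine ⟨k, Subtype.ext ?_⟩
      change ((⟨x, hx⟩ : M) ^ i) ^ p ^ k = 1
      rw [← zpow_natCast, ← zpow_mul, mul_comm, zpow_mul, zpow_natCast, hxk, one_zpow]
    obtain ⟨Q0, hQ0⟩ := hz.exists_le_sylow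
    obtain ⟨m, hm⟩ := MulAction.exists_smul_eq M P0 Q0
    have hQP : Q0 = P0 := by rw [← hm]; exact Sylow.smul_eq_of_normal
    have : (⟨x, hx⟩ : M) ∈ P0 := hQP ▸ hQ0 (Subgroup.mem_zpowers _)
    exact ⟨⟨x, hx⟩, this, rfl⟩
  have hne : P ≠ ⊥ := by
    intro hbot
    exact P0.ne_bot_of_dvd_card hp
      ((Subgroup.map_eq_bot_iff_of_injective _ M.subtype_injective).mp hbot)
  refine ⟨P, hle, hpg, hne, hpelt, ?_, ?_, ?_⟩
  · -- conjugation by `m ∈ M` agrees on `P` with conjugation by an element of `P`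
    intro m hm
    set o := orderOf m with ho
    set a := o.factorization p with ha
    set b := o / p ^ a with hb
    have hopos : 0 < o := orderOf_pos m
    have hdvd : p ^ a ∣ o := Nat.ordProj_dvd o p
    have hob : p ^ a * b = o := Nat.mul_div_cancel' hdvd
    have hbp : ¬ p ∣ b := Nat.not_dvd_ordCompl hpp hopos.ne'
    have hw : (m ^ b) ^ p ^ a = 1 := by
      rw [← pow_mul, mul_comm, hob, ho, pow_orderOf_eq_one]
    have hwP : m ^ b ∈ P := hpelt _ (M.pow_mem hm _) ⟨a, hw⟩
    have hu : orderOf (m ^ p ^ a) = b := by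
      rw [orderOf_pow_of_dvd (pow_ne_zero _ hpp.ne_zero) (ho ▸ hdvd)]
    obtain ⟨n, hn⟩ := hpg.exists_card_eq
    have hbcop : Nat.Coprime b p := ((Nat.Prime.coprime_iff_not_dvd hpp).mpr hbp).symm
    have hcop : (orderOf (m ^ p ^ a)).Coprime (Nat.card P) := by
      rw [hu, hn]
      exact Nat.Coprime.pow_right n hbcop
    have huM : m ^ p ^ a ∈ M := M.pow_mem hm _
    have hux : ∀ x ∈ P, x * m ^ p ^ a = m ^ p ^ a * x := by
      intro x hx
      apply Helper24.Coprime.commute_of_commutator_commute (hMN huM) hcop hx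
      exact commutatorElement_eq_one_iff_mul_comm.mp (hcl x (hle hx) _ huM _ huM)
    have hbez := Nat.gcd_eq_gcd_ab (p ^ a) b
    have hg1 : Nat.gcd (p ^ a) b = 1 := Nat.Coprime.pow_left a hbcop.symm
    rw [hg1] at hbez
    set s := Nat.gcdA (p ^ a) b with hs
    set t := Nat.gcdB (p ^ a) b with ht
    have hm_eq : m = (m ^ p ^ a) ^ s * (m ^ b) ^ t := by
      have h1 : m = m ^ ((1 : ℕ) : ℤ) := by simp
      rw [← zpow_natCast, ← zpow_natCast m b, ← zpow_mul, ← zpow_mul, ← zpow_add, ← hbez]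
      exact h1
    refine ⟨(m ^ b) ^ t, P.zpow_mem hwP t, ?_⟩
    intro x hx
    have hzx : (m ^ b) ^ t * x * ((m ^ b) ^ t)⁻¹ ∈ P :=
      P.mul_mem (P.mul_mem (P.zpow_mem hwP t) hx) (P.inv_mem (P.zpow_mem hwP t))
    have hc : Commute ((m ^ b) ^ t * x * ((m ^ b) ^ t)⁻¹) ((m ^ p ^ a) ^ s) :=
      Commute.zpow_right (hux _ hzx) s
    have e : m * x * m⁻¹ =
        (m ^ p ^ a) ^ s * ((m ^ b) ^ t * x * ((m ^ b) ^ t)⁻¹) * ((m ^ p ^ a) ^ s)⁻¹ := by
      conv_lhs => rw [hm_eq]
      group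
    rw [e, ← hc.eq]
    group
  · intro t ht d hd x hx
    exact commutatorElement_eq_one_iff_mul_comm.mp (hcl t (hle ht) d (hle hd) x (hle hx))
  · intro C hCM hCne hMC
    rcases hmax _ hMC with h | h
    · exact h.le
    · exfalso
      apply hCne
      haveI : C.Normal := Subgroup.normalizer_eq_top_iff.mp h
      have : C ≤ M.normalCore := Subgroup.normal_le_normalCore.mpr hCM
      rw [hcore] at this
      exact le_bot_iff.mp this

/-- Main theorem, in a form suited to induction on the order. -/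
theorem solvable_aux : ∀ (n : ℕ) (G : Type u) [Group G] [Finite G], Nat.card G = n →
    ∀ M : Subgroup G, M ≠ ⊤ → (∀ H : Subgroup G, M ≤ H → H = M ∨ H = ⊤) →
    Group.IsNilpotent M → (∀ x ∈ M, ∀ y ∈ M, ∀ z ∈ M, ⁅⁅x, y⁆, z⁆ = 1) → Group.IsSolvable G := by
  intro n
  induction n using Nat.strong_induction_on with
  | _ n ih =>
  intro G _ _ hn M hMtop hmax hnil hcl
  haveI : Group.IsSolvable M := inferInstance
  by_cases hcore : M.normalCore = ⊥
  · classical
    have hstep : ∀ q ∈ (Nat.card M).primeFactors, ∃ K : Subgroup G, K.Normal ∧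
        ¬ q ∣ Nat.card K ∧ (∃ n : ℕ, K.index = q ^ n) ∧ ¬ q ∣ M.index := by
      intro q hq
      haveI : Fact q.Prime := ⟨Nat.prime_of_mem_primeFactors hq⟩
      obtain ⟨P, hP⟩ := cfg_of_maximal M hmax hnil hcl hcore (Nat.dvd_of_mem_primeFactors hq)
      exact hP.exists_normal_complement
    choose! Kf hKf using hstep
    set K : Subgroup G := ⨅ q ∈ (Nat.card M).primeFactors, Kf q with hK
    haveI hKn : K.Normal :=
      Subgroup.normal_iInf_normal fun q => Subgroup.normal_iInf_normal fun hq => (hKf q hq).1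
    have hKle : ∀ q ∈ (Nat.card M).primeFactors, K ≤ Kf q := fun q hq => iInf₂_le q hq
    have hcop : (Nat.card M).Coprime (Nat.card K) := by
      apply Nat.coprime_of_dvd
      intro q hq hqM hqK
      have hq' : q ∈ (Nat.card M).primeFactors :=
        Nat.mem_primeFactors.mpr ⟨hq, hqM, Nat.card_pos.ne'⟩
      exact (hKf q hq').2.1 (hqK.trans (Subgroup.card_dvd_of_le (hKle q hq')))
    have hKne : K ≠ ⊥ := by
      have hidx : M.index ≠ 1 := fun h => hMtop (Subgroup.index_eq_one.mp h)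
      obtain ⟨r, hr, hrdvd⟩ := Nat.exists_prime_and_dvd hidx
      haveI : Fact r.Prime := ⟨hr⟩
      have hrG : r ∣ Nat.card G := hrdvd.trans (Subgroup.index_dvd_card M)
      obtain ⟨x, hx⟩ := exists_prime_orderOf_dvd_card' r hrG
      have hxK : x ∈ K := by
        rw [hK]
        simp only [Subgroup.mem_iInf]
        intro q hq
        obtain ⟨hqn, -, ⟨k, hk⟩, hqi⟩ := hKf q hq
        have hqr : q ≠ r := fun e => hqi (e ▸ hrdvd)
        have hqp := Nat.prime_of_mem_primeFactors hq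
        have h1 : x ^ (q ^ k) ∈ Kf q := by
          rw [← hk]
          exact Subgroup.pow_index_mem (Kf q) x
        have hc : Nat.Coprime (q ^ k) r :=
          Nat.Coprime.pow_left k ((Nat.coprime_primes hqp hr).mpr hqr)
        obtain ⟨m, -, hm⟩ := Nat.exists_mul_mod_eq_one_of_coprime hc hr.one_lt
        have hxe : x = (x ^ (q ^ k)) ^ m := by
          rw [← pow_mul, ← pow_mod_orderOf, hx, hm, pow_one]
        rw [hxe]
        exact Subgroup.pow_mem _ h1 m
      intro hbot
      rw [hbot, Subgroup.mem_bot] at hxK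
      rw [hxK, orderOf_one] at hx
      exact hr.one_lt.ne hx
    have hcardK : Nat.card K ≠ 1 := fun h => hKne (Subgroup.card_eq_one.mp h)
    obtain ⟨r, hr, hrK⟩ := Nat.exists_prime_and_dvd hcardK
    haveI : Fact r.Prime := ⟨hr⟩
    have hMK : M ≤ Subgroup.normalizer (K : Set G) := by
      rw [Subgroup.normalizer_eq_top]
      exact le_top
    obtain ⟨R0, hR0⟩ := Cfsg.Agent.S0023.result M K hMK hcop (Or.inl inferInstance) r
    set R : Subgroup G := (R0 : Subgroup K).map K.subtype with hR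
    have hRK : R ≤ K := Subgroup.map_subtype_le _
    have hRne : R ≠ ⊥ := by
      intro hbot
      exact R0.ne_bot_of_dvd_card hrK
        ((Subgroup.map_eq_bot_iff_of_injective _ K.subtype_injective).mp hbot)
    have hRM : ¬ R ≤ M := by
      intro hle
      have h1 : Nat.card R ∣ Nat.card M := Subgroup.card_dvd_of_le hle
      have h2 : Nat.card R ∣ Nat.card K := Subgroup.card_dvd_of_le hRK
      have : Nat.card R = 1 := Nat.eq_one_of_dvd_coprimes hcop h1 h2
      exact hRne (Subgroup.card_eq_one.mp this)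
    have htop : M ⊔ R = ⊤ := by
      rcases hmax (M ⊔ R) le_sup_left with h | h
      · exact absurd (h ▸ le_sup_right) hRM
      · exact h
    haveI hRn : R.Normal := by
      rw [← Subgroup.normalizer_eq_top_iff, eq_top_iff, ← htop]
      exact sup_le hR0 Subgroup.le_normalizer
    have hRp : IsPGroup r R := R0.isPGroup'.map _
    haveI : Group.IsNilpotent R := hRp.isNilpotent
    haveI : Group.IsSolvable R := inferInstance
    haveI : Group.IsSolvable (G ⧸ R) := by
      have hsurj : Function.Surjective ((QuotientGroup.mk' R).comp M.subtype) := by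
        intro y
        obtain ⟨g, rfl⟩ := QuotientGroup.mk'_surjective R y
        have hg : g ∈ M ⊔ R := htop ▸ Subgroup.mem_top g
        rw [← SetLike.mem_coe, Subgroup.mul_normal] at hg
        obtain ⟨m, hm, x, hx, rfl⟩ := Set.mem_mul.mp hg
        refine ⟨⟨m, hm⟩, ?_⟩
        change (QuotientGroup.mk m : G ⧸ R) = QuotientGroup.mk (m * x)
        rw [QuotientGroup.eq]
        simpa using hx
      exact solvable_of_surjective hsurj
    exact solvable_of_ker_le_range R.subtype (QuotientGroup.mk' R) (by simp)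
  · set C := M.normalCore with hC
    have hCM : C ≤ M := Subgroup.normalCore_le M
    haveI : C.Normal := Subgroup.normalCore_normal M
    have hlt : Nat.card (G ⧸ C) < n := by
      rw [← hn, Subgroup.card_eq_card_quotient_mul_card_subgroup C]
      have h2 : 1 < Nat.card C := (Subgroup.one_lt_card_iff_ne_bot (H := C)).mpr hcore
      have h3 : 0 < Nat.card (G ⧸ C) := Nat.card_pos
      nlinarith
    haveI hsol : Group.IsSolvable (G ⧸ C) := by
      refine ih _ hlt (G ⧸ C) rfl (M.map (QuotientGroup.mk' C)) ?_ ?_ ?_ ?_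
      · intro h
        apply hMtop
        have := congrArg (Subgroup.comap (QuotientGroup.mk' C)) h
        rw [QuotientGroup.comap_map_mk', Subgroup.comap_top, sup_eq_right.mpr hCM] at this
        exact this
      · intro H hH
        have h1 : M ≤ H.comap (QuotientGroup.mk' C) := Subgroup.map_le_iff_le_comap.mp hH
        rcases hmax _ h1 with h | h
        · left
          rw [← h, Subgroup.map_comap_eq_self_of_surjective (QuotientGroup.mk'_surjective C)]
        · right
          have := congrArg (Subgroup.map (QuotientGroup.mk' C)) h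
          rwa [Subgroup.map_comap_eq_self_of_surjective (QuotientGroup.mk'_surjective C),
            Subgroup.map_top_of_surjective _ (QuotientGroup.mk'_surjective C)] at this
      · exact nilpotent_of_surjective ((QuotientGroup.mk' C).subgroupMap M)
          (MonoidHom.subgroupMap_surjective _ _)
      · rintro _ ⟨x, hx, rfl⟩ _ ⟨y, hy, rfl⟩ _ ⟨z, hz, rfl⟩
        rw [← map_commutatorElement, ← map_commutatorElement, hcl x hx y hy z hz, map_one]
    haveI : Group.IsSolvable C := solvable_of_solvable_injective (Subgroup.inclusion_injective hCM)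
    exact solvable_of_ker_le_range C.subtype (QuotientGroup.mk' C) (by simp)

/-- A finite group with a maximal subgroup which is nilpotent of class at most two is
solvable. -/
theorem solvable_of_maximal_class_two {G : Type u} [Group G] [Finite G] (M : Subgroup G)
    (hmax : IsCoatom M) (hnil : Group.IsNilpotent M)
    (hcl : ∀ x ∈ M, ∀ y ∈ M, ∀ z ∈ M, ⁅⁅x, y⁆, z⁆ = 1) : Group.IsSolvable G := by
  refine solvable_aux (Nat.card G) G rfl M hmax.1 ?_ hnil hcl
  intro H hH
  rcases eq_or_lt_of_le hH with h | h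
  · exact Or.inl h.symm
  · exact Or.inr (hmax.2 H h)

end Cfsg.Agent.Lib.Helper50.MaxNil
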