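import Mathlib
import Cfsg.Agent.Lib.Lead.MaxStmt

/-!
# Piece PRIM of S2245: 2-transitive permutation groups are primitive
-/

set_option autoImplicit false

namespace Cfsg.Agent.Lib.Helper50.MaxPRIM

open Equiv MulAction Cfsg.Agent.Lib.Lead.MaxStmt Cfsg.Agent.Lib.Lead.SylTwoSym
open scoped Pointwise

theorem main : Cfsg.Agent.Lib.Lead.MaxStmt.Prim := by
  intro Ω _ _ M htt _
  apply MulAction.isPreprimitive_of_is_two_pretransitive
  rw [MulAction.is_two_pretransitive_iff]
  intro a b c d hab hcd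
  obtain ⟨g, hg, h1, h2⟩ := htt a b c d hab hcd
  exact ⟨⟨g, hg⟩, h1, h2⟩

end Cfsg.Agent.Lib.Helper50.MaxPRIM
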