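import Mathlib
import Cfsg.Agent.Lib.Lead.MaxStmt

/-!
# Piece TT of S2245: explicit 2-transitivity from a transitive point stabilizer
-/

set_option autoImplicit false

namespace Cfsg.Agent.Lib.Helper50.MaxTT

open Equiv MulAction Cfsg.Agent.Lib.Lead.MaxStmt Cfsg.Agent.Lib.Lead.SylTwoSym
open scoped Pointwise

theorem main : Cfsg.Agent.Lib.Lead.MaxStmt.TwoTrans := by
  intro Ω _ _ M u hstab hmove
  obtain ⟨m, hm, hmu⟩ := hmove
  -- transitivity to `u`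
  have htr : ∀ x : Ω, ∃ g ∈ M, g x = u := by
    intro x
    by_cases hx : x = u
    · exact ⟨1, M.one_mem, by simp [hx]⟩
    · obtain ⟨h, hh, _, hhx⟩ := hstab x (m u) hx hmu
      refine ⟨m⁻¹ * h, M.mul_mem (M.inv_mem hm) hh, ?_⟩
      simp [Perm.mul_apply, hhx]
  intro p q p' q' hpq hpq'
  obtain ⟨g₁, hg₁, hg₁p⟩ := htr p
  obtain ⟨g₂, hg₂, hg₂p⟩ := htr p'
  have h1 : g₁ q ≠ u := by
    intro h
    exact hpq (g₁.injective (hg₁p.trans h.symm))
  have h2 : g₂ q' ≠ u := by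
    intro h
    exact hpq' (g₂.injective (hg₂p.trans h.symm))
  obtain ⟨h, hh, hhu, hhq⟩ := hstab (g₁ q) (g₂ q') h1 h2
  refine ⟨g₂⁻¹ * h * g₁, M.mul_mem (M.mul_mem (M.inv_mem hg₂) hh) hg₁, ?_, ?_⟩
  · simp only [Perm.mul_apply, hg₁p, hhu]
    rw [← hg₂p]
    simp
  · simp only [Perm.mul_apply, hhq]
    simp

end Cfsg.Agent.Lib.Helper50.MaxTT
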