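import Mathlib
import Cfsg.Agent.Lib.Helper27.OzStmt
import Cfsg.Agent.Lib.Helper45.OmegaCenter
import Cfsg.Agent.Lib.Helper45.OrthCard
import Cfsg.Agent.Lib.Helper44.NegPairs
import Cfsg.Agent.S0296

/-!
# S5388 piece OFACTS

The orthogonal group of plus type in dimension 8 over the field of two elements has order
`348364800`; its commutator subgroup has index two, is simple and is not commutative.
-/

set_option autoImplicit false

namespace Cfsg.Agent.Lib.Helper50.OzOFACTS

open Cfsg Cfsg.Agent.Lib.Helper27.OzStmt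

theorem main : Cfsg.Agent.Lib.Helper27.OzStmt.OFacts := by
  have hF : Fintype.card (ZMod 2) = 2 := ZMod.card 2
  have hS := Cfsg.Agent.Lib.Helper44.NegPairs.sep_plusQ (F := ZMod 2) (3 + 1)
  have hcardι : Fintype.card (Fin (3 + 1) ⊕ Fin (3 + 1)) = 2 * (3 + 1) := by
    simp only [Fintype.card_sum, Fintype.card_fin]
  have hcardO : Nat.card O8 = 348364800 := by
    have h := Cfsg.Agent.Lib.Helper45.OrthCard.card_plus (F := ZMod 2) hF 3
    show Nat.card ↥(Cfsg.isometryGroup (ZMod 2) (Cfsg.quadFormPlus (3 + 1) (ZMod 2))) = _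
    rw [h]
    decide
  have hidx : (Om8).index = 2 := by
    show (Cfsg.Omega (ZMod 2) (Cfsg.quadFormPlus (3 + 1) (ZMod 2))).index = 2
    have := Cfsg.Agent.Lib.Helper44.OMat2.index_omega_eq
      (Cfsg.Agent.Lib.Helper44.NegPairs.plusQ (3 + 1) (ZMod 2))
    rw [Cfsg.Agent.Lib.Helper44.NegPairs.coe_plusQ] at this
    rw [this]
    exact Cfsg.Agent.Lib.Helper44.Omega2.index_commutator_two hS
      (Or.inr (Or.inl (by rw [Module.finrank_fintype_fun_eq_card, hcardι]; omega)))
  have hcen : Nat.card ↥(Subgroup.center ↥(Cfsg.Omega (ZMod 2)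
      (Cfsg.quadFormPlus (3 + 1) (ZMod 2)))) = 1 :=
    Cfsg.Agent.Lib.Helper45.OmegaCenter.card_center_two
      (Cfsg.Agent.Lib.Helper44.NegPairs.plusQ (3 + 1) (ZMod 2)) hS
      (Or.inr (Or.inl (by rw [Module.finrank_fintype_fun_eq_card, hcardι]; omega)))
      (by rw [hcardι]; omega)
  have hbot : Subgroup.center ↥(Cfsg.Omega (ZMod 2) (Cfsg.quadFormPlus (3 + 1) (ZMod 2))) = ⊥ :=
    Subgroup.eq_bot_of_card_eq _ hcen
  have hsimpleP : IsSimpleGroup (Cfsg.POmega (ZMod 2) (Cfsg.quadFormPlus 4 (ZMod 2))) :=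
    Cfsg.Agent.S0296.result (F := ZMod 2) 4 le_rfl
  have hsimple : IsSimpleGroup ↥Om8 := by
    have e : (Cfsg.POmega (ZMod 2) (Cfsg.quadFormPlus 4 (ZMod 2))) ≃*
        ↥(Cfsg.Omega (ZMod 2) (Cfsg.quadFormPlus 4 (ZMod 2))) :=
      (QuotientGroup.quotientMulEquivOfEq hbot).trans QuotientGroup.quotientBot
    exact (MulEquiv.isSimpleGroup_congr e).mp hsimpleP
  refine ⟨hcardO, hidx, hsimple, ?_⟩
  intro hcomm
  have hcardOm : Nat.card ↥Om8 * 2 = 348364800 := by
    have hmul := Subgroup.card_mul_index Om8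
    rw [hidx, hcardO] at hmul
    exact hmul
  have htop : Subgroup.center ↥Om8 = ⊤ := by
    rw [eq_top_iff]
    intro a _
    rw [Subgroup.mem_center_iff]
    intro b
    exact hcomm b a
  have h1 : Nat.card ↥(Subgroup.center ↥Om8) = Nat.card ↥Om8 := by
    rw [htop, Subgroup.card_top]
  have h2 : Nat.card ↥(Subgroup.center ↥Om8) = 1 := hcen
  omega

end Cfsg.Agent.Lib.Helper50.OzOFACTS

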