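import Mathlib
import Cfsg.Agent.Lib.Helper96.SylAltBasic

/-!
# S2221 piece M3

A central element of `S` supported in `U` lies in `N`, if `N` contains the central involutions
attached to the covered orbits inside `U`.
-/

set_option autoImplicit false

namespace Cfsg.Agent.Lib.Helper50.SAM3

open Equiv Cfsg.Agent.Lib.Lead.SylTwoSym Cfsg.Agent.Lib.Helper96.SylAltStmt
  Cfsg.Agent.Lib.Helper96.SylAltBasic

theorem main : Cfsg.Agent.Lib.Helper96.SylAltStmt.M3' := by
  intro hZB Ω _ _ S hS N U hN
  have key : ∀ n : ℕ, ∀ x : Perm Ω, x ∈ S → Cen S x → SupOn x U → x.support.card = n →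
      x ∈ N := by
    intro n
    induction n using Nat.strong_induction_on with
    | _ n ih =>
      intro x hxS hxC hxU hcard
      by_cases hx1 : x = 1
      · rw [hx1]
        exact N.one_mem
      -- a moved point
      obtain ⟨c, hc⟩ : ∃ c, x c ≠ c := by
        by_contra hcon
        apply hx1
        ext a
        by_contra ha
        exact hcon ⟨a, ha⟩
      have hcU : c ∈ U := by
        by_contra h
        exact hc (hxU c h)
      have hxτ : ∀ τ ∈ swapsIn S, x * τ = τ * x := fun τ hτ => hxC τ hτ.1
      have hcov : Cov S c := by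
        rcases hZB Ω S hS x hxτ c with h | ⟨τ, hτ, hτc, -⟩
        · exact absurd h hc
        · exact ⟨τ, hτ, hτc⟩
      obtain ⟨y, hyN, hyS, hyC, hymove⟩ := hN c hcU hcov
      have hyτ : ∀ τ ∈ swapsIn S, y * τ = τ * y := fun τ hτ => hyC τ hτ.1
      -- `x` moves every point of the orbit of `c`
      have hxO : ∀ a, (∃ s ∈ S, s c = a) → x a ≠ a := by
        rintro a ⟨s, hs, rfl⟩ h
        apply hc
        have h1 : (x * s) c = (s * x) c := by rw [hxC s hs]
        simp only [Perm.mul_apply] at h1
        rw [h] at h1
        exact (s.injective h1).symm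
      -- `x` and `y` agree on the orbit
      have hxy : ∀ a, (∃ s ∈ S, s c = a) → x a = y a := by
        intro a ha
        have hxa := hxO a ha
        have hya : y a ≠ a := (hymove a).mpr ha
        rcases hZB Ω S hS x hxτ a with h | ⟨τ, hτ, hτa, hxτa⟩
        · exact absurd h hxa
        rcases hZB Ω S hS y hyτ a with h | ⟨τ', hτ', hτ'a, hyτ'a⟩
        · exact absurd h hya
        have : τ = τ' := eq_of_moves hS.1 hτ hτ' hτa hτ'a
        rw [hxτa, hyτ'a, this]
      -- `y` fixes the points outside the orbit
      have hyfix : ∀ a, ¬ (∃ s ∈ S, s c = a) → y a = a := by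
        intro a ha
        by_contra h
        exact ha ((hymove a).mp h)
      -- `x` preserves the complement of the orbit
      have hxpres : ∀ a, ¬ (∃ s ∈ S, s c = a) → ¬ (∃ s ∈ S, s c = x a) := by
        rintro a ha ⟨s, hs, hsa⟩
        apply ha
        refine ⟨x⁻¹ * s, S.mul_mem (S.inv_mem hxS) hs, ?_⟩
        rw [Perm.mul_apply, hsa]
        simp
      -- the new element
      have hx'S : y⁻¹ * x ∈ S := S.mul_mem (S.inv_mem hyS) hxS
      have hx'C : Cen S (y⁻¹ * x) := by
        intro s hs
        have h1 : y⁻¹ * s = s * y⁻¹ := by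
          have := hyC s hs
          calc y⁻¹ * s = y⁻¹ * (s * y) * y⁻¹ := by group
            _ = y⁻¹ * (y * s) * y⁻¹ := by rw [this]
            _ = s * y⁻¹ := by group
        calc y⁻¹ * x * s = y⁻¹ * (x * s) := by group
          _ = y⁻¹ * (s * x) := by rw [hxC s hs]
          _ = (y⁻¹ * s) * x := by group
          _ = (s * y⁻¹) * x := by rw [h1]
          _ = s * (y⁻¹ * x) := by group
      have hx'in : ∀ a, (∃ s ∈ S, s c = a) → (y⁻¹ * x) a = a := by
        intro a ha
        rw [Perm.mul_apply, hxy a ha]
        simp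
      have hx'out : ∀ a, ¬ (∃ s ∈ S, s c = a) → (y⁻¹ * x) a = x a := by
        intro a ha
        rw [Perm.mul_apply]
        have := hyfix (x a) (hxpres a ha)
        rw [Perm.inv_eq_iff_eq]
        exact this.symm
      have hx'U : SupOn (y⁻¹ * x) U := by
        intro a ha
        by_cases hO : ∃ s ∈ S, s c = a
        · exact hx'in a hO
        · rw [hx'out a hO]
          exact hxU a ha
      have hsub : (y⁻¹ * x).support ⊂ x.support := by
        rw [Finset.ssubset_iff_of_subset]
        · refine ⟨c, Perm.mem_support.mpr hc, ?_⟩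
          rw [Perm.mem_support, not_not]
          exact hx'in c ⟨1, S.one_mem, rfl⟩
        · intro a ha
          rw [Perm.mem_support] at ha ⊢
          by_cases hO : ∃ s ∈ S, s c = a
          · exact absurd (hx'in a hO) ha
          · rw [hx'out a hO] at ha
            exact ha
      have hlt : (y⁻¹ * x).support.card < n := by
        rw [← hcard]
        exact Finset.card_lt_card hsub
      have hx'N : y⁻¹ * x ∈ N := ih _ hlt (y⁻¹ * x) hx'S hx'C hx'U rfl
      have : x = y * (y⁻¹ * x) := by group
      rw [this]
      exact N.mul_mem hyN hx'N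
  intro x hxS hxC hxU
  exact key _ x hxS hxC hxU rfl

end Cfsg.Agent.Lib.Helper50.SAM3

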