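import Mathlib
import Cfsg.Agent.Lib.Helper38.Sp4Stmt
import Cfsg.Agent.Lib.Helper29.Sp4SNF
import Cfsg.Agent.Lib.Helper2.Sp4CINVa

set_option autoImplicit false

/-!
helper50: piece [NORM] of S5320 (`N_G(S0) ⊆ S0 · ψ(δ N_L(Q))`), from the normal form [SNF] and the
centre [CINV] of `S0`.
-/

namespace Cfsg.Agent.Lib.Helper50.Sp4NORM

open Cfsg.Agent.Lib.Helper38.Sp4Stmt

universe u v

section

variable {G : Type u} {L : Type v} [Group G] [Group L] {ψ : L × L →* G} {τ : G} {ε : L}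
  {Q : Subgroup L}

theorem psi_mul (ψ : L × L →* G) (a b c d : L) : ψ (a, b) * ψ (c, d) = ψ (a * c, b * d) := by
  rw [← map_mul]; rfl

theorem psi_inv (ψ : L × L →* G) (a b : L) : (ψ (a, b))⁻¹ = ψ (a⁻¹, b⁻¹) := by
  rw [← map_inv]; rfl

theorem psi_mem {a b : L} (ha : a ∈ Q) (hb : b ∈ Q) : ψ (a, b) ∈ S0 ψ τ Q :=
  Subgroup.subset_closure (Or.inr ⟨a, ha, b, hb, rfl⟩)

theorem tau_mem : τ ∈ S0 ψ τ Q := Subgroup.subset_closure (Or.inl rfl)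

theorem z_ne (D : Data ψ τ ε) : ψ (ε, 1) ≠ 1 := by
  intro h
  rcases D.ker ε 1 h with ⟨h1, -⟩ | ⟨-, h2⟩
  · exact D.eps_ne h1
  · exact D.eps_ne h2.symm

theorem z_swap (D : Data ψ τ ε) : ψ (1, ε) = ψ (ε, 1) := by
  have h : ψ (ε, 1) * ψ (ε, ε) = ψ (1, ε) := by rw [psi_mul, D.eps_sq, one_mul]
  rw [← h, D.ker_eps, mul_one]

theorem tau_psi (D : Data ψ τ ε) (a b : L) : τ * ψ (a, b) = ψ (b, a) * τ := by
  have h := D.tau_conj a b
  rw [← h]; group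

theorem z_central (D : Data ψ τ ε) :
    ∀ x ∈ S0 ψ τ Q, ψ (ε, 1) * x = x * ψ (ε, 1) := by
  have hle : S0 ψ τ Q ≤ Subgroup.centralizer {ψ (ε, 1)} := by
    rw [S0, Subgroup.closure_le]
    rintro x (rfl | ⟨a, -, b, -, rfl⟩)
    · rw [SetLike.mem_coe, Subgroup.mem_centralizer_iff]
      intro h hh
      rw [Set.mem_singleton_iff] at hh
      subst hh
      rw [tau_psi D, z_swap D]
    · rw [SetLike.mem_coe, Subgroup.mem_centralizer_iff]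
      intro h hh
      rw [Set.mem_singleton_iff] at hh
      subst hh
      rw [psi_mul, psi_mul, D.eps_comm a, one_mul, mul_one]
  intro x hx
  exact Subgroup.mem_centralizer_iff.1 (hle hx) _ rfl

/-- an element `ψ (a, b)` of `S0` has `a, b ∈ Q` -/
theorem mem_of_psi_mem (hSNF : SNF.{u, v}) (D : Data ψ τ ε) (Qd : QData ε Q) {a b : L}
    (h : ψ (a, b) ∈ S0 ψ τ Q) : a ∈ Q ∧ b ∈ Q := by
  obtain ⟨a', ha', b', hb', h1 | h1⟩ := (hSNF G L ψ τ ε Q D (ψ (a, b))).1 h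
  · have h2 : ψ (a'⁻¹ * a, b'⁻¹ * b) = 1 := by
      rw [← psi_mul, ← psi_inv, h1, inv_mul_cancel]
    rcases D.ker _ _ h2 with ⟨h3, h4⟩ | ⟨h3, h4⟩
    · rw [inv_mul_eq_one] at h3 h4
      rw [← h3, ← h4]; exact ⟨ha', hb'⟩
    · have ea : a = a' * ε := eq_mul_of_inv_mul_eq h3
      have eb : b = b' * ε := eq_mul_of_inv_mul_eq h4
      rw [ea, eb]
      exact ⟨Q.mul_mem ha' Qd.eps_mem, Q.mul_mem hb' Qd.eps_mem⟩
  · exfalso
    apply D.tau_not (a'⁻¹ * a) (b'⁻¹ * b)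
    rw [← psi_mul, ← psi_inv, h1, inv_mul_cancel_left]

theorem mem_of_psi_tau_mem (hSNF : SNF.{u, v}) (D : Data ψ τ ε) (Qd : QData ε Q) {a b : L}
    (h : ψ (a, b) * τ ∈ S0 ψ τ Q) : a ∈ Q ∧ b ∈ Q := by
  have h1 : ψ (a, b) ∈ S0 ψ τ Q := by
    have h2 := (S0 ψ τ Q).mul_mem h (tau_mem (ψ := ψ) (τ := τ) (Q := Q))
    rwa [mul_assoc, D.tau_sq, mul_one] at h2
  exact mem_of_psi_mem hSNF D Qd h1

theorem norm_psi (hSNF : SNF.{u, v}) (D : Data ψ τ ε) (Qd : QData ε Q) {a b : L}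
    (hn : ψ (a, b) ∈ Subgroup.normalizer ((S0 ψ τ Q : Subgroup G) : Set G)) :
    (∀ c ∈ Q, b * c * b⁻¹ ∈ Q) ∧ a * b⁻¹ ∈ Q := by
  rw [Subgroup.mem_normalizer_iff] at hn
  constructor
  · intro c hc
    have h1 := (hn (ψ (1, c))).1 (psi_mem Q.one_mem hc)
    rw [psi_inv, psi_mul, psi_mul] at h1
    exact (mem_of_psi_mem hSNF D Qd h1).2
  · have h1 := (hn τ).1 tau_mem
    have h2 : ψ (a, b) * τ * (ψ (a, b))⁻¹ = ψ (a * b⁻¹, b * a⁻¹) * τ := by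
      rw [psi_inv, mul_assoc, tau_psi D, ← mul_assoc, psi_mul]
    rw [h2] at h1
    exact (mem_of_psi_tau_mem hSNF D Qd h1).1

end

theorem main_of (hSNF : SNF.{u, v}) (hCINV : CINV.{u, v}) : NORM.{u, v} := by
  intro G L _ _ ψ τ ε Q D Qd n hn
  have hz : n * ψ (ε, 1) = ψ (ε, 1) * n := by
    have hu : n * ψ (ε, 1) * n⁻¹ ∈ S0 ψ τ Q :=
      (Subgroup.mem_normalizer_iff.1 hn _).1 (psi_mem Qd.eps_mem Q.one_mem)
    have hcen : ∀ x ∈ S0 ψ τ Q, n * ψ (ε, 1) * n⁻¹ * x = x * (n * ψ (ε, 1) * n⁻¹) := by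
      intro x hx
      have hx' : n⁻¹ * x * n ∈ S0 ψ τ Q := by
        apply ((Subgroup.mem_normalizer_iff.1 hn) _).2
        have h0 : n * (n⁻¹ * x * n) * n⁻¹ = x := by group
        rw [h0]; exact hx
      have h1 := z_central D _ hx'
      calc n * ψ (ε, 1) * n⁻¹ * x = n * (ψ (ε, 1) * (n⁻¹ * x * n)) * n⁻¹ := by group
        _ = n * ((n⁻¹ * x * n) * ψ (ε, 1)) * n⁻¹ := by rw [h1]
        _ = x * (n * ψ (ε, 1) * n⁻¹) := by group
    rcases hCINV G L ψ τ ε Q D Qd _ hu hcen with h | h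
    · exfalso
      apply z_ne D
      have h0 : ψ (ε, 1) = n⁻¹ * (n * ψ (ε, 1) * n⁻¹) * n := by group
      rw [h0, h]; group
    · have h0 : n * ψ (ε, 1) = n * ψ (ε, 1) * n⁻¹ * n := by group
      rw [h0, h]
  obtain ⟨a, b, h | h⟩ := D.cent n hz
  · subst h
    obtain ⟨hb, hab⟩ := norm_psi hSNF D Qd hn
    refine ⟨ψ (a * b⁻¹, 1), psi_mem hab Q.one_mem, b, hb, ?_⟩
    rw [psi_mul]; simp
  · have hn' : ψ (a, b) ∈ Subgroup.normalizer ((S0 ψ τ Q : Subgroup G) : Set G) := by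
      have h1 : ψ (a, b) = n * τ := by rw [h, mul_assoc, D.tau_sq, mul_one]
      rw [h1]
      exact Subgroup.mul_mem _ hn (Subgroup.le_normalizer tau_mem)
    obtain ⟨hb, hab⟩ := norm_psi hSNF D Qd hn'
    refine ⟨ψ (a * b⁻¹, 1) * τ, (S0 ψ τ Q).mul_mem (psi_mem hab Q.one_mem) tau_mem, b, hb, ?_⟩
    have h3 : ψ (a * b⁻¹, 1) * τ * ψ (b, b) = ψ (a, b) * τ := by
      rw [mul_assoc, tau_psi D, ← mul_assoc, psi_mul]; simp
    rw [h3, h]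

theorem main : NORM.{u, v} :=
  main_of Cfsg.Agent.Lib.Helper29.Sp4SNF.main
    (Cfsg.Agent.Lib.Helper2.Sp4CINVa.cinv_of Cfsg.Agent.Lib.Helper29.Sp4SNF.main)

end Cfsg.Agent.Lib.Helper50.Sp4NORM
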