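import Mathlib
import Cfsg.Agent.Lib.Helper38.Sp4Stmt
import Cfsg.Agent.Lib.Helper50.Sp4NORM

set_option autoImplicit false

/-!
helper50: piece [N2] of S5320: in the quaternion case `d = ψ (w, w)` normalizes `S0`,
`N_G(S0) ⊆ S0 ∪ S0 d ∪ S0 d²` and the `2`-elements of `N_G(S0)` lie in `S0`.
-/

namespace Cfsg.Agent.Lib.Helper50.Sp4N2

open Cfsg.Agent.Lib.Helper38.Sp4Stmt Cfsg.Agent.Lib.Helper50.Sp4NORM

universe u v

/-- powers of `s g` with `g` normalizing `T ∋ s` -/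
theorem pow_mul_normalizer {G : Type u} [Group G] {T : Subgroup G} {s g : G} (hs : s ∈ T)
    (hg : g ∈ Subgroup.normalizer (T : Set G)) (m : ℕ) : ∃ s' ∈ T, (s * g) ^ m = s' * g ^ m := by
  induction m with
  | zero => exact ⟨1, T.one_mem, by simp⟩
  | succ m ih =>
    obtain ⟨s', hs', h⟩ := ih
    have hgm : g ^ m ∈ Subgroup.normalizer (T : Set G) := Subgroup.pow_mem _ hg m
    have h1 : g ^ m * s * (g ^ m)⁻¹ ∈ T := (Subgroup.mem_normalizer_iff.1 hgm s).1 hs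
    refine ⟨s' * (g ^ m * s * (g ^ m)⁻¹), T.mul_mem hs' h1, ?_⟩
    rw [pow_succ, h, pow_succ]; group

theorem two_pow_mod_three (k : ℕ) : 2 ^ k % 3 = 1 ∨ 2 ^ k % 3 = 2 := by
  induction k with
  | zero => left; norm_num
  | succ k ih =>
    rw [pow_succ]
    omega

/-- if `s g` is a `2`-element, `g³ = 1`, `g` normalizes `T ∋ s`, then `g ∈ T` -/
theorem mem_of_two_elt {G : Type u} [Group G] {T : Subgroup G} {s g : G} (hs : s ∈ T)
    (hg : g ∈ Subgroup.normalizer (T : Set G)) (hg3 : g ^ 3 = 1) {k : ℕ}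
    (hk : (s * g) ^ (2 ^ k) = 1) : g ∈ T := by
  obtain ⟨s', hs', h⟩ := pow_mul_normalizer hs hg (2 ^ k)
  rw [hk] at h
  have h1 : g ^ (2 ^ k) ∈ T := by
    have h2 : g ^ (2 ^ k) = s'⁻¹ := eq_inv_of_mul_eq_one_right h.symm
    rw [h2]; exact T.inv_mem hs'
  rw [pow_eq_pow_mod _ hg3] at h1
  rcases two_pow_mod_three k with h2 | h2
  · rw [h2, pow_one] at h1; exact h1
  · rw [h2] at h1
    have h3 : g = g ^ 2 * g ^ 2 := by
      rw [← pow_add]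
      have h4 : g ^ (2 + 2) = g ^ 3 * g := by rw [← pow_succ]
      rw [h4, hg3, one_mul]
    rw [h3]; exact T.mul_mem h1 h1

theorem main : N2.{u, v} := by
  intro hSNF hS2G hNORM G L _ _ ψ τ ε Q w D Qd Q8
  have hd3 : ψ (w, w) ^ 3 = 1 := by
    rw [pow_succ, pow_two, psi_mul, psi_mul, Q8.w_cube]
    exact map_one ψ
  -- conjugation by `d` maps `S0` into `S0`
  have hfwd : ∀ h ∈ S0 ψ τ Q, ψ (w, w) * h * (ψ (w, w))⁻¹ ∈ S0 ψ τ Q := by
    intro h hh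
    induction hh using Subgroup.closure_induction with
    | mem x hx =>
      rcases hx with hx | ⟨a, ha, b, hb, rfl⟩
      · have h1 : ψ (w, w) * τ * (ψ (w, w))⁻¹ = τ := by
          rw [← tau_psi D, mul_assoc, mul_inv_cancel, mul_one]
        rw [hx, h1]; exact tau_mem
      · rw [psi_inv, psi_mul, psi_mul]
        exact psi_mem (Q8.w_norm a ha) (Q8.w_norm b hb)
    | one => simp
    | mul x y _ _ hx hy =>
      have h1 : ψ (w, w) * (x * y) * (ψ (w, w))⁻¹ =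
          (ψ (w, w) * x * (ψ (w, w))⁻¹) * (ψ (w, w) * y * (ψ (w, w))⁻¹) := by group
      rw [h1]; exact Subgroup.mul_mem _ hx hy
    | inv x _ hx =>
      have h1 : ψ (w, w) * x⁻¹ * (ψ (w, w))⁻¹ = (ψ (w, w) * x * (ψ (w, w))⁻¹)⁻¹ := by group
      rw [h1]; exact Subgroup.inv_mem _ hx
  have hdinv : (ψ (w, w))⁻¹ = ψ (w, w) * ψ (w, w) := by
    rw [inv_eq_iff_mul_eq_one, ← pow_two, ← pow_succ']
    exact hd3
  have hdN : ψ (w, w) ∈ Subgroup.normalizer ((S0 ψ τ Q : Subgroup G) : Set G) := by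
    rw [Subgroup.mem_normalizer_iff]
    intro h
    refine ⟨hfwd h, fun hh => ?_⟩
    have h1 := hfwd _ (hfwd _ hh)
    have h2 : ψ (w, w) * (ψ (w, w) * (ψ (w, w) * h * (ψ (w, w))⁻¹) * (ψ (w, w))⁻¹) *
        (ψ (w, w))⁻¹ = h := by
      have key : ∀ d h : G, d * (d * (d * h * d⁻¹) * d⁻¹) * d⁻¹ = d ^ 3 * h * (d ^ 3)⁻¹ := by
        intro d h; simp [pow_succ, mul_assoc]
      rw [key, hd3]; simp
    rw [h2] at h1; exact h1
  have hcases : ∀ n ∈ Subgroup.normalizer ((S0 ψ τ Q : Subgroup G) : Set G),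
      ∃ s ∈ S0 ψ τ Q, n = s ∨ n = s * ψ (w, w) ∨ n = s * (ψ (w, w) * ψ (w, w)) := by
    intro n hn
    obtain ⟨s, hs, a, ha, rfl⟩ := hNORM G L ψ τ ε Q D Qd n hn
    obtain ⟨c, hc, h | h | h⟩ := Q8.norm a ha
    · exact ⟨s * ψ (c, c), Subgroup.mul_mem _ hs (psi_mem hc hc), Or.inl (by rw [h])⟩
    · refine ⟨s * ψ (c, c), Subgroup.mul_mem _ hs (psi_mem hc hc), Or.inr (Or.inl ?_)⟩
      rw [h, mul_assoc, psi_mul]
    · refine ⟨s * ψ (c, c), Subgroup.mul_mem _ hs (psi_mem hc hc), Or.inr (Or.inr ?_)⟩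
      rw [h, mul_assoc, psi_mul, psi_mul]
  -- `d ∉ S0`
  have hdS : ψ (w, w) ∉ S0 ψ τ Q := by
    intro hd
    obtain ⟨k, hk⟩ := hS2G G L ψ τ ε Q D Qd _ hd
    have h1 : orderOf (ψ (w, w)) ∣ Nat.gcd (2 ^ k) 3 :=
      Nat.dvd_gcd (orderOf_dvd_of_pow_eq_one hk) (orderOf_dvd_of_pow_eq_one hd3)
    have h2 : Nat.gcd (2 ^ k) 3 = 1 := Nat.Coprime.pow_left k (by norm_num)
    rw [h2, Nat.dvd_one, orderOf_eq_one_iff] at h1
    rcases D.ker w w h1 with ⟨h3, -⟩ | ⟨h3, -⟩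
    · exact Q8.w_ne h3
    · have h4 := Q8.w_cube
      rw [h3, D.eps_sq, one_mul] at h4
      exact D.eps_ne h4
  refine ⟨hdN, hcases, ?_⟩
  rintro n hn ⟨k, hk⟩
  obtain ⟨s, hs, h | h | h⟩ := hcases n hn
  · rw [h]; exact hs
  · exfalso
    rw [h] at hk
    exact hdS (mem_of_two_elt hs hdN hd3 hk)
  · exfalso
    rw [h] at hk
    have hd23 : (ψ (w, w) * ψ (w, w)) ^ 3 = 1 := by
      have h1 : (ψ (w, w) * ψ (w, w)) ^ 3 = (ψ (w, w) ^ 3) ^ 2 := by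
        rw [← pow_two, ← pow_mul, ← pow_mul]
      rw [h1, hd3, one_pow]
    have h2 := mem_of_two_elt hs (Subgroup.mul_mem _ hdN hdN) hd23 hk
    apply hdS
    have h3 : ψ (w, w) = (ψ (w, w) * ψ (w, w)) * (ψ (w, w) * ψ (w, w)) := by
      have key : ∀ d : G, (d * d) * (d * d) = d ^ 3 * d := by
        intro d; simp [pow_succ, mul_assoc]
      rw [key, hd3, one_mul]
    rw [h3]; exact Subgroup.mul_mem _ h2 h2

end Cfsg.Agent.Lib.Helper50.Sp4N2
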